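import Mathlib
import Cfsg.Prelude.Def_Solvable
import Cfsg.Prelude.Def_CaseTheorems
import Cfsg.Prelude.Def_Transfer
import Cfsg.Prelude.Def_Classical

/-! Pieces for S3366 (3^{1+2}.SL(2,3) with a 3^3 is the centralizer of a 3-central element of PSp(4,3)).
All pieces are closed Props. -/

set_option autoImplicit false
universe u v w

namespace Cfsg.Agent.Lib.Helper26.J3Stmt

abbrev SL := Matrix.SpecialLinearGroup (Fin 2) (ZMod 3)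
abbrev V := Fin 2 → ZMod 3

/-- `R = O_3(X)`. -/
abbrev R (X : Type u) [Group X] : Subgroup X := Cfsg.pCore 3 X

/-- `Z(R)` as a subgroup of `X`. -/
def Zc (X : Type u) [Group X] : Subgroup X :=
  (Subgroup.center (Cfsg.pCore 3 X)).map (Cfsg.pCore 3 X).subtype

/-- The hypotheses of S3366 on `X`. -/
def Hyp (X : Type u) [Group X] : Prop :=
  Finite X ∧ Cfsg.IsExtraspecial 3 (Cfsg.pCore 3 X) ∧ Nat.card (Cfsg.pCore 3 X) = 27 ∧
  (∀ r ∈ Cfsg.pCore 3 X, r ^ 3 = 1) ∧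
  Nonempty (X ⧸ Cfsg.pCore 3 X ≃* SL) ∧ Cfsg.pCore 2 X = ⊥ ∧
  (∃ E : Subgroup X, IsMulCommutative E ∧ (∀ a ∈ E, a ^ 3 = 1) ∧ Nat.card E = 27)

/-- Normal form: `X` is the Jacobi group `3^{1+2} : SL(2,3)` in coordinates. -/
def Coord (X : Type u) [Group X] : Prop :=
  ∃ (ι : V → X) (z : X) (κ : SL →* X),
    Function.Bijective (fun p : V × ZMod 3 × SL => ι p.1 * z ^ p.2.1.val * κ p.2.2) ∧
    z ^ 3 = 1 ∧ (∀ x : X, x * z = z * x) ∧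
    (∀ u v : V, ι u * ι v = ι (u + v) * z ^ (u 0 * v 1 - u 1 * v 0).val) ∧
    (∀ (A : SL) (u : V), κ A * ι u = ι (A.1.mulVec u) * κ A)

/-- facts on `Z = Z(R)`. -/
def ZFacts (X : Type u) [Group X] : Prop :=
  Nat.card (Zc X) = 3 ∧ Zc X ≤ R X ∧
  (∀ r ∈ R X, ∀ s ∈ R X, r * s * r⁻¹ * s⁻¹ ∈ Zc X) ∧
  (∀ r ∈ R X, (∀ s ∈ R X, r * s = s * r) → r ∈ Zc X) ∧
  (∀ z ∈ Zc X, ∀ x : X, x * z = z * x)

/-- the involution `t`: central mod `R`, inverting `R / Z`. -/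
def TProp (X : Type u) [Group X] (t : X) : Prop :=
  t * t = 1 ∧ t ∉ R X ∧ (∀ x : X, x * t * x⁻¹ * t⁻¹ ∈ R X) ∧
  (∀ r ∈ R X, r * (t * r * t⁻¹) ∈ Zc X)

/-- `X / R` acts faithfully on `R / Z`. -/
def Faith (X : Type u) [Group X] : Prop :=
  ∀ x : X, (∀ r ∈ R X, x * r * x⁻¹ * r⁻¹ ∈ Zc X) → x ∈ R X

/-- `K` is a complement of `R` centralizing `t`. -/
def Split (X : Type u) [Group X] (t : X) (K : Subgroup X) : Prop :=
  (∀ k ∈ K, k * t = t * k) ∧ K ⊓ R X = ⊥ ∧ Nat.card K = 24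

/-- coordinates on `R`. -/
def Frame (X : Type u) [Group X] (t : X) (ι : V → X) (z : X) : Prop :=
  (∀ u, ι u ∈ R X) ∧ (∀ u, t * ι u * t⁻¹ = (ι u)⁻¹) ∧ z ∈ Zc X ∧ z ≠ 1 ∧
  (∀ r ∈ R X, ∃ (u : V) (c : ZMod 3), r = ι u * z ^ c.val) ∧
  (∀ (u u' : V) (c c' : ZMod 3), ι u * z ^ c.val = ι u' * z ^ c'.val → u = u' ∧ c = c') ∧
  (∀ u v : V, ι u * ι v = ι (u + v) * z ^ (u 0 * v 1 - u 1 * v 0).val)

/-! ## abstract pieces -/

def ZF1 : Prop := ∀ (X : Type u) [Group X], Hyp X →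
  Nat.card (Zc X) = 3 ∧ Zc X ≤ R X ∧
  (∀ r ∈ R X, ∀ s ∈ R X, r * s * r⁻¹ * s⁻¹ ∈ Zc X) ∧
  (∀ r ∈ R X, (∀ s ∈ R X, r * s = s * r) → r ∈ Zc X)

def ZF2 : Prop := ∀ (X : Type u) [Group X], Hyp X → ∀ z ∈ Zc X, ∀ x : X, x * z = z * x

def T1 : Prop := ∀ (X : Type u) [Group X], Hyp X →
  ∃ t : X, t * t = 1 ∧ t ∉ R X ∧ (∀ x : X, x * t * x⁻¹ * t⁻¹ ∈ R X) ∧
    ¬ (∀ r ∈ R X, t * r = r * t)

def T2 : Prop := ∀ (X : Type u) [Group X], Hyp X → ZFacts X → ∀ t : X, t * t = 1 →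
  ¬ (∀ r ∈ R X, t * r = r * t) → ∀ r ∈ R X, r * (t * r * t⁻¹) ∈ Zc X

def FAITH : Prop := ∀ (X : Type u) [Group X], Hyp X → ZFacts X → ∀ t : X, TProp X t → Faith X

def CT : Prop := ∀ (X : Type u) [Group X], Hyp X → ∀ t : X, TProp X t →
  ∀ x : X, ∃ r ∈ R X, (r * x) * t = t * (r * x)

def DEX : Prop := CT.{u} → ∀ (X : Type u) [Group X], Hyp X → ∀ t : X, TProp X t →
  ∃ d : X, d * t = t * d ∧ d ∉ R X ∧ d ^ 3 ∈ R X

def EINT : Prop := ∀ (X : Type u) [Group X], Hyp X → ZFacts X →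
  ∀ E : Subgroup X, IsMulCommutative E → Nat.card E = 27 →
    Zc X ≤ E ∧ Nat.card (E ⊓ R X : Subgroup X) = 9

def ECONJ : Prop := ∀ (X : Type u) [Group X], Hyp X → ∀ d : X, d ∉ R X → d ^ 3 ∈ R X →
  ∃ E : Subgroup X, IsMulCommutative E ∧ (∀ a ∈ E, a ^ 3 = 1) ∧ Nat.card E = 27 ∧
    ∃ r ∈ R X, (r * d ∈ E ∨ r * d⁻¹ ∈ E)

def DCUBE : Prop := EINT.{u} → ECONJ.{u} → ∀ (X : Type u) [Group X], Hyp X → ZFacts X →
  ∀ t : X, TProp X t → ∀ d : X, d * t = t * d → d ∉ R X → d ^ 3 ∈ R X → d ^ 3 = 1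

def TNORM : Prop := CT.{u} → ∀ (X : Type u) [Group X], Hyp X → ZFacts X → ∀ t : X, TProp X t →
  ∃ T : Subgroup X, Nat.card T = 8 ∧ (∀ τ ∈ T, τ * t = t * τ) ∧
    (∀ n : X, n * t = t * n → ∀ τ ∈ T, n * τ * n⁻¹ ∈ T)

def KEX : Prop := ∀ (X : Type u) [Group X], Hyp X → ZFacts X → ∀ t : X, TProp X t →
  ∀ T : Subgroup X, Nat.card T = 8 → (∀ τ ∈ T, τ * t = t * τ) →
    (∀ n : X, n * t = t * n → ∀ τ ∈ T, n * τ * n⁻¹ ∈ T) →
    ∀ d : X, d * t = t * d → d ∉ R X → d ^ 3 = 1 → ∃ K : Subgroup X, Split X t K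

def FR1 : Prop := ∀ (X : Type u) [Group X], Hyp X → ZFacts X → ∀ t : X, TProp X t →
  ∃ r1 ∈ R X, ∃ r2 ∈ R X, t * r1 * t⁻¹ = r1⁻¹ ∧ t * r2 * t⁻¹ = r2⁻¹ ∧ r1 * r2 ≠ r2 * r1

/-- explicit coordinates from two non-commuting elements inverted by `t`. -/
def iotaOf {X : Type u} [Group X] (r1 r2 : X) (u : V) : X :=
  r1 ^ (u 0).val * r2 ^ (u 1).val * (r1 * r2 * r1⁻¹ * r2⁻¹) ^ (u 0 * u 1).val

def zOf {X : Type u} [Group X] (r1 r2 : X) : X := (r1 * r2 * r1⁻¹ * r2⁻¹)⁻¹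

/-- membership, inversion by `t`, `z`, multiplication law. -/
def FR2 : Prop := ∀ (X : Type u) [Group X], Hyp X → ZFacts X → ∀ t : X, TProp X t →
  ∀ r1 ∈ R X, ∀ r2 ∈ R X, t * r1 * t⁻¹ = r1⁻¹ → t * r2 * t⁻¹ = r2⁻¹ → r1 * r2 ≠ r2 * r1 →
    (∀ u, iotaOf r1 r2 u ∈ R X) ∧ (∀ u, t * iotaOf r1 r2 u * t⁻¹ = (iotaOf r1 r2 u)⁻¹) ∧
    zOf r1 r2 ∈ Zc X ∧ zOf r1 r2 ≠ 1 ∧
    (∀ u v : V, iotaOf r1 r2 u * iotaOf r1 r2 v =
      iotaOf r1 r2 (u + v) * zOf r1 r2 ^ (u 0 * v 1 - u 1 * v 0).val)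

/-- uniqueness and existence of the normal form `ι u * z ^ c` on `R`. -/
def FR3 : Prop := ∀ (X : Type u) [Group X], Hyp X → ZFacts X →
  ∀ r1 ∈ R X, ∀ r2 ∈ R X, r1 * r2 ≠ r2 * r1 →
    (∀ (u u' : V) (c c' : ZMod 3),
      iotaOf r1 r2 u * zOf r1 r2 ^ c.val = iotaOf r1 r2 u' * zOf r1 r2 ^ c'.val → u = u' ∧ c = c') ∧
    (∀ r ∈ R X, ∃ (u : V) (c : ZMod 3), r = iotaOf r1 r2 u * zOf r1 r2 ^ c.val)

/-- each `k ∈ K` acts on the coordinates by an additive, determinant-preserving map. -/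
def KACT1 : Prop := ∀ (X : Type u) [Group X], Hyp X → ZFacts X →
  ∀ (t : X) (K : Subgroup X) (ι : V → X) (z : X), TProp X t → Split X t K → Frame X t ι z →
    ∀ k ∈ K, ∃ ρ : V → V, (∀ u, k * ι u = ι (ρ u) * k) ∧ (∀ u v, ρ (u + v) = ρ u + ρ v) ∧
      (∀ u v, ρ u 0 * ρ v 1 - ρ u 1 * ρ v 0 = u 0 * v 1 - u 1 * v 0)

/-- the action as a homomorphism to `SL(2,3)`. -/
def KACT2 : Prop := KACT1.{u} → ∀ (X : Type u) [Group X], Hyp X → ZFacts X →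
  ∀ (t : X) (K : Subgroup X) (ι : V → X) (z : X), TProp X t → Split X t K → Frame X t ι z →
    ∃ M : K →* SL, ∀ (k : K) (u : V), (k : X) * ι u = ι ((M k).1.mulVec u) * (k : X)

/-- the inverse of the action: `κ : SL(2,3) → K`. -/
def KACT3 : Prop := ∀ (X : Type u) [Group X], Hyp X → ZFacts X →
  ∀ (t : X) (K : Subgroup X) (ι : V → X) (z : X), TProp X t → Split X t K → Frame X t ι z →
    Faith X → (∃ M : K →* SL, ∀ (k : K) (u : V), (k : X) * ι u = ι ((M k).1.mulVec u) * (k : X)) →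
    ∃ κ : SL →* X, Function.Injective κ ∧ (∀ A, κ A ∈ K) ∧
      (∀ (A : SL) (u : V), κ A * ι u = ι (A.1.mulVec u) * κ A)

def COORD : Prop := ∀ (X : Type u) [Group X], Hyp X → ZFacts X →
  ∀ (t : X) (K : Subgroup X) (ι : V → X) (z : X) (κ : SL →* X), TProp X t → Split X t K →
    Frame X t ι z → Function.Injective κ → (∀ A, κ A ∈ K) →
    (∀ (A : SL) (u : V), κ A * ι u = ι (A.1.mulVec u) * κ A) → Coord X

/-! ## generic pieces -/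

def ISO : Prop := ∀ (X : Type u) [Group X] (Y : Type v) [Group Y],
  Coord X → Coord Y → Nonempty (X ≃* Y)

/-- the conclusion of S3366 for a target group `G`. -/
def Concl (X : Type u) [Group X] (G : Type v) [Group G] : Prop :=
  ∃ (c : G) (S : Sylow 3 G), orderOf c = 3 ∧ c ∈ (S : Subgroup G) ∧
    c ∈ Subgroup.centralizer ((S : Subgroup G) : Set G) ∧
    Nonempty (X ≃* Subgroup.centralizer ({c} : Set G))

def XFER : Prop := ∀ (X : Type u) [Group X] (G : Type v) [Group G] (G' : Type w) [Group G'],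
  (G ≃* G') → Concl X G → Concl X G'

def TRANS : Prop := ∀ (F : Type v) [Field F] [Fintype F], Fintype.card F = 3 →
  Nonempty (Cfsg.PSp 2 (ZMod 3) ≃* Cfsg.PSp 2 F)

/-! ## concrete pieces: `Sp(4,3)` -/

abbrev Sp := Matrix.symplecticGroup (Fin 2) (ZMod 3)
abbrev PG := Cfsg.PSp 2 (ZMod 3)
abbrev Mat := Matrix (Fin 2 ⊕ Fin 2) (Fin 2 ⊕ Fin 2) (ZMod 3)

def iotaM (u : V) : Mat :=
  Matrix.fromBlocks !![1, -u 1; 0, 1] !![0, u 0; u 0, 0] !![0, 0; 0, 0] !![1, 0; u 1, 1]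

def zM : Mat := Matrix.fromBlocks 1 !![1, 0; 0, 0] 0 1

def kapM (A : SL) : Mat :=
  Matrix.fromBlocks !![1, 0; 0, A.1 0 0] !![0, 0; 0, A.1 0 1] !![0, 0; 0, A.1 1 0] !![1, 0; 0, A.1 1 1]

/-- the matrices as elements of `Sp(4,3)`. -/
def Model (ι : V → Sp) (z : Sp) (κ : SL →* Sp) : Prop :=
  (∀ u, (ι u : Mat) = iotaM u) ∧ (z : Mat) = zM ∧ (∀ A, (κ A : Mat) = kapM A)

def CON1 : Prop := ∃ (ι : V → Sp) (z : Sp) (κ : SL →* Sp), Model ι z κ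

/-- relations. -/
def CON2 : Prop := ∀ (ι : V → Sp) (z : Sp) (κ : SL →* Sp), Model ι z κ →
  z ^ 3 = 1 ∧ (∀ u, z * ι u = ι u * z) ∧ (∀ A, z * κ A = κ A * z) ∧
  (∀ u v : V, ι u * ι v = ι (u + v) * z ^ (u 0 * v 1 - u 1 * v 0).val) ∧
  (∀ (A : SL) (u : V), κ A * ι u = ι (A.1.mulVec u) * κ A)

/-- the stabilizer of the first basis vector: first column `e_0`. -/
def InP (g : Sp) : Prop := ∀ i, (g : Mat) i (Sum.inl 0) = if i = Sum.inl 0 then 1 else 0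

/-- every element of the stabilizer has a normal form. -/
def CON3 : Prop := ∀ (ι : V → Sp) (z : Sp) (κ : SL →* Sp), Model ι z κ →
  ∀ g : Sp, InP g → ∃ (u : V) (c : ZMod 3) (A : SL), g = ι u * z ^ c.val * κ A

/-- normal forms lie in the stabilizer and are distinct. -/
def CON4 : Prop := ∀ (ι : V → Sp) (z : Sp) (κ : SL →* Sp), Model ι z κ →
  (∀ (u : V) (c : ZMod 3) (A : SL), InP (ι u * z ^ c.val * κ A)) ∧
  Function.Injective (fun p : V × ZMod 3 × SL => ι p.1 * z ^ p.2.1.val * κ p.2.2)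

/-- the centre of `Sp(4,3)` meets the stabilizer trivially, and consists of `± 1`. -/
def CON5 : Prop := ∀ g ∈ Subgroup.center Sp, ((g : Mat) = 1 ∨ (g : Mat) = -1) ∧ (InP g → g = 1)

/-- lifting the centralizer of the image of `z` to the stabilizer. -/
def CON6 : Prop := CON5 → ∀ (z : Sp), (z : Mat) = zM → ∀ g : Sp,
  (QuotientGroup.mk g : PG) * QuotientGroup.mk z = QuotientGroup.mk z * QuotientGroup.mk g →
  ∃ g' : Sp, InP g' ∧ (QuotientGroup.mk g' : PG) = QuotientGroup.mk g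

def CON7 : Prop := CON5 → ∀ (z : Sp), (z : Mat) = zM → orderOf (QuotientGroup.mk z : PG) = 3

/-- assembly of the concrete side. -/
def CASM : Prop := CON1 → CON2 → CON3 → CON4 → CON5 → CON6 → CON7 →
  ∃ c : PG, orderOf c = 3 ∧ Coord ↥(Subgroup.centralizer ({c} : Set PG))

def SYL : Prop := ∀ c : PG, orderOf c = 3 → Coord ↥(Subgroup.centralizer ({c} : Set PG)) →
  ∃ S : Sylow 3 PG, c ∈ (S : Subgroup PG) ∧ c ∈ Subgroup.centralizer ((S : Subgroup PG) : Set PG)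

end Cfsg.Agent.Lib.Helper26.J3Stmt
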