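import Mathlib
import Cfsg.Agent.Lib.Helper86.Sp4.F4
import Cfsg.Agent.H84.PslDefs

/-!
# S3157: pieces

`T` of order 64, non-abelian, `ρ` a fixed-point-free automorphism of order 3, `x` an
automorphism of order 2 inverting `ρ`.  Then `T` is a Sylow 2-subgroup of `PSL(3,4)` and the
fixed points of `x` form a dihedral or quaternion group of order 8.

Every piece is a closed `Prop`; the assembly is `Cfsg.Agent.Lib.Helper26.T64Final`.
-/

set_option autoImplicit false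

namespace Cfsg.Agent.Lib.Helper26.T64Stmt

universe u

/-- the concrete field with four elements `z = 0, o = 1, w = ω, v = ω² = ω + 1` -/
abbrev F4 : Type := Cfsg.Agent.Lib.Helper86.Sp4F4.F4

section Defs

variable (T : Type u) [Group T]

/-- `ρ` fixes only the identity -/
def Fpf (ρ : MulAut T) : Prop := ∀ y : T, ρ y = y → y = 1

/-- `y ρ(y) ρ²(y) = 1` and `y` commutes with `ρ(y)` -/
def FpfFacts (ρ : MulAut T) : Prop :=
  ∀ y : T, y * ρ y * ρ (ρ y) = 1 ∧ y * ρ y = ρ y * y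

/-- Lang: a `ρ`-invariant subgroup containing `t⁻¹ ρ(t)` contains `t` -/
def LangFact (ρ : MulAut T) : Prop :=
  ∀ N : Subgroup T, (∀ n ∈ N, ρ n ∈ N) → ∀ t : T, t⁻¹ * ρ t ∈ N → t ∈ N

/-- a `ρ`-invariant subgroup has order `≡ 1 (mod 3)` -/
def Mod3Fact (ρ : MulAut T) : Prop :=
  ∀ N : Subgroup T, (∀ n ∈ N, ρ n ∈ N) → Nat.card N % 3 = 1

/-- the centre has exponent 2 -/
def ZExp : Prop := ∀ z ∈ Subgroup.center T, z * z = 1

/-- squares are central -/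
def SqCentral : Prop := ∀ t : T, t * t ∈ Subgroup.center T

/-- the commutator identity `[s, ρ t] = ρ² [s, t]` -/
def CommId (ρ : MulAut T) : Prop :=
  ∀ s t : T, s * ρ t * s⁻¹ * (ρ t)⁻¹ = ρ (ρ (s * t * s⁻¹ * t⁻¹))

/-- the action of `x` on the centre: exactly one non-identity fixed point `z₀`, and some
central `w` with `x w = w z₀` -/
def XZ (x : MulAut T) : Prop :=
  ∃ z₀ w : T, z₀ ∈ Subgroup.center T ∧ w ∈ Subgroup.center T ∧ z₀ ≠ 1 ∧ x z₀ = z₀ ∧
    x w = w * z₀ ∧ ∀ z ∈ Subgroup.center T, x z = z → z = 1 ∨ z = z₀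

/-- `T = C · ρ(C)` for `C` the fixed points of `x` -/
def XFact (ρ x : MulAut T) : Prop :=
  ∀ t : T, ∃ c c' : T, x c = c ∧ x c' = c' ∧ t = c * ρ c'

/-- two non-commuting fixed points of `x` -/
def XNab (x : MulAut T) : Prop :=
  ∃ c₁ c₂ : T, x c₁ = c₁ ∧ x c₂ = c₂ ∧ c₁ * c₂ ≠ c₂ * c₁

/-- two non-commuting involutions -/
def Inv2 : Prop := ∃ a b : T, a * a = 1 ∧ b * b = 1 ∧ a * b ≠ b * a

/-- generators and relations of the Sylow 2-subgroup of `PSL(3,4)`: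
`a₁, a₂` (resp. `b₁, b₂`, `z₁, z₂`) correspond to the basis `1, ω` of `F4`. -/
def GenData : Prop :=
  ∃ a₁ a₂ b₁ b₂ z₁ z₂ : T,
    a₁ * a₁ = 1 ∧ a₂ * a₂ = 1 ∧ b₁ * b₁ = 1 ∧ b₂ * b₂ = 1 ∧ z₁ * z₁ = 1 ∧ z₂ * z₂ = 1 ∧
    (∀ t : T, z₁ * t = t * z₁) ∧ (∀ t : T, z₂ * t = t * z₂) ∧
    a₁ * a₂ = a₂ * a₁ ∧ b₁ * b₂ = b₂ * b₁ ∧
    b₁ * a₁ = a₁ * b₁ * z₁ ∧ b₂ * a₁ = a₁ * b₂ * z₂ ∧
    b₁ * a₂ = a₂ * b₁ * z₂ ∧ b₂ * a₂ = a₂ * b₂ * (z₁ * z₂) ∧
    Subgroup.closure ({a₁, a₂, b₁, b₂, z₁, z₂} : Set T) = ⊤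

/-- Heisenberg coordinates over `F4` -/
def HeisData : Prop :=
  ∃ α β γ : F4 → T,
    (∀ p q : F4, α (p + q) = α p * α q) ∧ (∀ p q : F4, β (p + q) = β p * β q) ∧
    (∀ p q : F4, γ (p + q) = γ p * γ q) ∧
    (∀ (c : F4) (t : T), γ c * t = t * γ c) ∧
    (∀ a b : F4, β b * α a = α a * β b * γ (a * b)) ∧
    Function.Bijective (fun p : F4 × F4 × F4 => α p.1 * β p.2.1 * γ p.2.2)

end Defs

/-! ## the pieces -/

/-- [FPF] Burnside: for a fixed-point-free automorphism of order 3, `y ρ(y) ρ²(y) = 1` and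
`y` commutes with `ρ(y)`. -/
def FPF : Prop :=
  ∀ (T : Type u) [Group T] [Finite T] (ρ : MulAut T), orderOf ρ = 3 → Fpf T ρ → FpfFacts T ρ

/-- [LANG] `t ↦ t⁻¹ ρ(t)` is a bijection of every `ρ`-invariant subgroup. -/
def LANG : Prop :=
  ∀ (T : Type u) [Group T] [Finite T] (ρ : MulAut T), Fpf T ρ → LangFact T ρ

/-- [MOD3] orbits of `⟨ρ⟩` on the non-identity elements of an invariant subgroup have size 3. -/
def MOD3 : Prop :=
  ∀ (T : Type u) [Group T] [Finite T] (ρ : MulAut T), orderOf ρ = 3 → Fpf T ρ → Mod3Fact T ρ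

/-- [ZCARD] the centre has order 4. -/
def ZCARD : Prop :=
  ∀ (T : Type u) [Group T] [Finite T] (ρ : MulAut T), Nat.card T = 64 → ¬ IsMulCommutative T →
    orderOf ρ = 3 → Fpf T ρ → FpfFacts T ρ → LangFact T ρ → Mod3Fact T ρ →
    Nat.card (Subgroup.center T) = 4

/-- [ZEXP] the centre is elementary abelian. -/
def ZEXP : Prop :=
  ∀ (T : Type u) [Group T] [Finite T] (ρ : MulAut T), orderOf ρ = 3 → Fpf T ρ →
    Nat.card (Subgroup.center T) = 4 → ZExp T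

/-- [SQ] squares are central. -/
def SQ : Prop :=
  ∀ (T : Type u) [Group T] [Finite T] (ρ : MulAut T), Nat.card T = 64 → ¬ IsMulCommutative T →
    orderOf ρ = 3 → Fpf T ρ → FpfFacts T ρ → LangFact T ρ → Mod3Fact T ρ →
    Nat.card (Subgroup.center T) = 4 → ZExp T → SqCentral T

/-- [COMMID] `[s, ρ t] = ρ² [s, t]`. -/
def COMMID : Prop :=
  ∀ (T : Type u) [Group T] [Finite T] (ρ : MulAut T), orderOf ρ = 3 → FpfFacts T ρ →
    ZExp T → SqCentral T → CommId T ρ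

/-- [CXZ] `x` fixes exactly one involution of the centre. -/
def CXZ : Prop :=
  ∀ (T : Type u) [Group T] [Finite T] (ρ x : MulAut T), orderOf ρ = 3 → orderOf x = 2 →
    x * ρ * x⁻¹ = ρ⁻¹ → Fpf T ρ → Nat.card (Subgroup.center T) = 4 → ZExp T → XZ T x

/-- [CXFACT] `T = C_T(x) · ρ(C_T(x))`. -/
def CXFACT : Prop :=
  ∀ (T : Type u) [Group T] [Finite T] (ρ x : MulAut T), orderOf ρ = 3 → orderOf x = 2 →
    x * ρ * x⁻¹ = ρ⁻¹ → Fpf T ρ → FpfFacts T ρ → Nat.card (Subgroup.center T) = 4 →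
    ZExp T → SqCentral T → XZ T x → XFact T ρ x

/-- [CXCARD] `C_T(x)` has order 8. -/
def CXCARD : Prop :=
  ∀ (T : Type u) [Group T] [Finite T] (ρ x : MulAut T), Nat.card T = 64 → orderOf ρ = 3 →
    orderOf x = 2 → x * ρ * x⁻¹ = ρ⁻¹ → Fpf T ρ → XFact T ρ x →
    ∀ C : Subgroup T, (∀ y : T, y ∈ C ↔ x y = y) → Nat.card C = 8

/-- [CXNAB] `C_T(x)` is not abelian. -/
def CXNAB : Prop :=
  ∀ (T : Type u) [Group T] [Finite T] (ρ x : MulAut T), Nat.card T = 64 →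
    Nat.card (Subgroup.center T) = 4 → XZ T x → XFact T ρ x → CommId T ρ → XNab T x

/-- [INV] two non-commuting involutions. -/
def INV : Prop :=
  ∀ (T : Type u) [Group T] [Finite T] (ρ x : MulAut T), orderOf ρ = 3 → FpfFacts T ρ →
    ZExp T → SqCentral T → CommId T ρ → XZ T x → XNab T x → Inv2 T

/-- [GEN] generators and relations. -/
def GEN : Prop :=
  ∀ (T : Type u) [Group T] [Finite T] (ρ : MulAut T), Nat.card T = 64 → orderOf ρ = 3 →
    Fpf T ρ → FpfFacts T ρ → LangFact T ρ → Mod3Fact T ρ →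
    Nat.card (Subgroup.center T) = 4 → ZExp T → SqCentral T → CommId T ρ → Inv2 T → GenData T

/-- [NF] normal form: Heisenberg coordinates over `F4`. -/
def NF : Prop :=
  ∀ (T : Type u) [Group T] [Finite T], Nat.card T = 64 → GenData T → HeisData T

/-- [HEIS] a group with Heisenberg coordinates over `F4` is the unitriangular group, which
maps isomorphically onto `Ubar 3 F4 ≤ PSL(3, F4)`. -/
def HEIS : Prop :=
  ∀ (T : Type u) [Group T], HeisData T →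
    Nonempty (T ≃* ↥(Cfsg.Agent.H84.PslDefs.Ubar 3 F4))

/-- [ORD8] a non-abelian group of order 8 is dihedral or quaternion. -/
def ORD8 : Prop :=
  ∀ (G : Type u) [Group G] [Finite G], Nat.card G = 8 → (∃ a b : G, a * b ≠ b * a) →
    Nonempty (G ≃* DihedralGroup 4) ∨ Nonempty (G ≃* QuaternionGroup 2)

end Cfsg.Agent.Lib.Helper26.T64Stmt
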