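import Mathlib
import Cfsg.Agent.Lib.Helper30.CTIStmt

/-!
# S4064, piece QBAD: in a generalized quaternion group of order `4 * 2 ^ n` the element `xa 0`
commutes with its conjugate by `a 1` only if `n ≤ 1`.
-/

set_option autoImplicit false

namespace Cfsg.Agent.Lib.Helper26.CTIQBAD

open Cfsg.Agent.Lib.Helper30.CTIStmt

theorem main : QBAD := by
  intro n h
  have h1 : QuaternionGroup.a (1 : ZMod (2 * 2 ^ n)) * QuaternionGroup.xa 0
      * (QuaternionGroup.a 1)⁻¹ = QuaternionGroup.xa (-2) := by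
    rw [QuaternionGroup.a_mul_xa]
    show QuaternionGroup.xa (0 - 1) * QuaternionGroup.a (-1) = _
    rw [QuaternionGroup.xa_mul_a]
    congr 1
    ring
  rw [h1] at h
  have h2 := h.eq
  rw [QuaternionGroup.xa_mul_xa, QuaternionGroup.xa_mul_xa] at h2
  have h3 := QuaternionGroup.a.inj h2
  have h4 : ((4 : ℕ) : ZMod (2 * 2 ^ n)) = 0 := by
    push_cast
    linear_combination (-1 : ZMod (2 * 2 ^ n)) * h3
  have h5 : (2 * 2 ^ n) ∣ 4 := (ZMod.natCast_eq_zero_iff 4 (2 * 2 ^ n)).mp h4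
  by_contra hn
  have hn2 : 2 ≤ n := by omega
  have h6 : 2 * 2 ^ n ≤ 4 := Nat.le_of_dvd (by norm_num) h5
  have h7 : 2 ^ 2 ≤ 2 ^ n := Nat.pow_le_pow_right (by norm_num) hn2
  omega

end Cfsg.Agent.Lib.Helper26.CTIQBAD
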