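import Mathlib
import Cfsg.Agent.Lib.Helper32.D8Stmt
import Cfsg.Agent.Lib.CT.FrobRec

/-! S3716 piece CROSS (from IP, VALD). -/

set_option autoImplicit false

namespace Cfsg.Agent.Lib.Helper26.D8CROSS

open Cfsg Cfsg.Agent.Lib.CT
open Cfsg.Agent.Lib.Helper32
open scoped ComplexConjugate

universe u

theorem classInner_conj_symm' {G : Type u} [Group G] [Fintype G] (φ ψ : G → ℂ) :
    classInner φ ψ = conj (classInner ψ φ) := by
  unfold classInner
  rw [map_mul, map_inv₀, Complex.conj_natCast, map_sum]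
  congr 1
  apply Finset.sum_congr rfl
  intro g _
  rw [map_mul, Complex.conj_conj, mul_comm]

theorem main (hIP : D8Stmt.IP.{u}) (hVALD : D8Stmt.VALD.{u}) : D8Stmt.CROSS.{u} := by
  intro G _ _ T N x y a b w hc f g hom f' g' hom'
  obtain ⟨v1, v2, v3, v4, v5, v6⟩ := hVALD hc f' g' hom'
  have cf1 : IsClassFunction G (D8Stmt.th1 (x * y) f') :=
    FrobRec.indFun_isClassFunction _ _
  have cf2 : IsClassFunction G (D8Stmt.th2 (x * y) f' g') :=
    FrobRec.indFun_isClassFunction _ _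
  obtain ⟨i1, i2⟩ := hIP hc f g hom _ cf1
  obtain ⟨i3, i4⟩ := hIP hc f g hom _ cf2
  rw [v1, v2, v3] at i1 i2
  rw [v4, v5, v6] at i3 i4
  have h6 : conj (6 : ℂ) = 6 := map_ofNat (starRingEnd ℂ) 6
  have h3 : conj (3 : ℂ) = 3 := map_ofNat (starRingEnd ℂ) 3
  have h2 : conj (2 : ℂ) = 2 := map_ofNat (starRingEnd ℂ) 2
  have h0 : conj (0 : ℂ) = 0 := map_zero _
  rw [h6, h3, h0] at i1 i2 i3 i4
  have c1 : classInner (D8Stmt.th1 x f) (D8Stmt.th1 (x * y) f') = 2 := by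
    rw [i1]; norm_num
  have c2 : classInner (D8Stmt.th2 x f g) (D8Stmt.th1 (x * y) f') = 2 := by
    rw [i2]; norm_num
  have c3 : classInner (D8Stmt.th1 x f) (D8Stmt.th2 (x * y) f' g') = 2 := by
    rw [i3]; norm_num
  have c4 : classInner (D8Stmt.th2 x f g) (D8Stmt.th2 (x * y) f' g') = 2 := by
    rw [i4]; norm_num
  refine ⟨c1, ?_, c3, ?_, c2, ?_, c4, ?_⟩
  · rw [classInner_conj_symm', c1, h2]
  · rw [classInner_conj_symm', c3, h2]
  · rw [classInner_conj_symm', c2, h2]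
  · rw [classInner_conj_symm', c4, h2]

end Cfsg.Agent.Lib.Helper26.D8CROSS
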