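import Mathlib
import Cfsg.Agent.Lib.Helper32.D8Stmt
import Cfsg.Agent.Lib.CT.FrobRec
import Cfsg.Agent.Lib.CT.IndChar
import Cfsg.Agent.Lib.CT.LinChar
import Cfsg.Agent.Lib.CT.Ops

/-! S3716 piece GENCH. -/

set_option autoImplicit false

namespace Cfsg.Agent.Lib.Helper26.D8GENCH

open Cfsg Cfsg.Agent.Lib.CT
open Cfsg.Agent.Lib.Helper32
open scoped ComplexConjugate

universe u

theorem main : D8Stmt.GENCH.{u} := by
  intro G _ _ x f g
  classical
  haveI : Fintype (Subgroup.centralizer ({x} : Set G)) := Fintype.ofFinite _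
  have hphi1 : D8Stmt.ph1 x f = (fun _ => (1 : ℂ)) - (fun h => ((f h : ℂˣ) : ℂ)) := rfl
  have hphi2 : D8Stmt.ph2 x f g =
      (fun h => ((g h : ℂˣ) : ℂ)) - (fun h => (((f * g) h : ℂˣ) : ℂ)) := by
    funext h
    simp [D8Stmt.ph2]
  refine ⟨?_, ?_⟩
  · refine ⟨indFun (Subgroup.centralizer ({x} : Set G)) (fun _ => (1 : ℂ)),
      indFun (Subgroup.centralizer ({x} : Set G)) (fun h => ((f h : ℂˣ) : ℂ)),
      IndChar.isCharacter_indFun _ _ Ops.isCharacter_one,
      IndChar.isCharacter_indFun _ _ (LinChar.isCharacter_of_hom f), ?_⟩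
    unfold D8Stmt.th1
    rw [hphi1, FrobRec.indFun_sub]
  · refine ⟨indFun (Subgroup.centralizer ({x} : Set G)) (fun h => ((g h : ℂˣ) : ℂ)),
      indFun (Subgroup.centralizer ({x} : Set G)) (fun h => (((f * g) h : ℂˣ) : ℂ)),
      IndChar.isCharacter_indFun _ _ (LinChar.isCharacter_of_hom g),
      IndChar.isCharacter_indFun _ _ (LinChar.isCharacter_of_hom (f * g)), ?_⟩
    unfold D8Stmt.th2
    rw [hphi2, FrobRec.indFun_sub]

end Cfsg.Agent.Lib.Helper26.D8GENCH
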