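import Mathlib
import Cfsg.Agent.Lib.Helper32.D8Stmt
import Cfsg.Agent.Lib.CT.FrobRec

/-! S3716 piece VALD (from DUAL, VALA, VALB). -/

set_option autoImplicit false

namespace Cfsg.Agent.Lib.Helper26.D8VALD

open Cfsg Cfsg.Agent.Lib.CT
open Cfsg.Agent.Lib.Helper32
open scoped ComplexConjugate

universe u

theorem grp_e1 {G : Type u} [Group G] {x y a : G} (x3 : x ^ 3 = 1) (xy : x * y = y * x)
    (ax : a * x * a⁻¹ = x⁻¹) : x * y * (x * y⁻¹) = a * x * a⁻¹ := by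
  have hxx : x * x = x⁻¹ := by
    apply eq_inv_of_mul_eq_one_left
    rw [← x3, pow_succ, pow_two]
  rw [ax]
  calc x * y * (x * y⁻¹) = x * (y * x) * y⁻¹ := by group
    _ = x * (x * y) * y⁻¹ := by rw [← xy]
    _ = x * x := by group
    _ = x⁻¹ := hxx

theorem grp_e2 {G : Type u} [Group G] {x y a b : G} (x3 : x ^ 3 = 1) (xy : x * y = y * x)
    (ax : a * x * a⁻¹ = x⁻¹) (ab : a * b = b * a) :
    x * y * (x * y⁻¹) * b = a * (x * b) * a⁻¹ := by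
  rw [grp_e1 x3 xy ax]
  have hb : a * b * a⁻¹ = b := by rw [ab]; group
  calc a * x * a⁻¹ * b = a * x * a⁻¹ * (a * b * a⁻¹) := by rw [hb]
    _ = a * (x * b) * a⁻¹ := by group

theorem main (hDUAL : D8Stmt.DUAL.{u}) (hVALA : D8Stmt.VALA.{u}) (hVALB : D8Stmt.VALB.{u}) :
    D8Stmt.VALD.{u} := by
  intro G _ _ T N x y a b w hc f' g' hom
  obtain ⟨hd, -⟩ := hDUAL hc
  obtain ⟨hA1, hA2, -, hA4⟩ := hVALA hd f' g' hom
  obtain ⟨hB1, hB2, -, hB4⟩ := hVALB hd f' g' hom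
  have e1 := grp_e1 hc.x3 hc.xy hc.ax
  have e2 := grp_e2 hc.x3 hc.xy hc.ax hc.ab
  have cf1 : IsClassFunction G (D8Stmt.th1 (x * y) f') :=
    FrobRec.indFun_isClassFunction _ _
  have cf2 : IsClassFunction G (D8Stmt.th2 (x * y) f' g') :=
    FrobRec.indFun_isClassFunction _ _
  rw [e1, cf1 x a] at hA2
  rw [e2, cf1 (x * b) a] at hA4
  rw [e1, cf2 x a] at hB2
  rw [e2, cf2 (x * b) a] at hB4
  exact ⟨hA2, hA1, hA4, hB2, hB1, hB4⟩

end Cfsg.Agent.Lib.Helper26.D8VALD
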