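import Cfsg.Agent.Lib.Helper26.J3Stmt

/-! S3366 piece CASM: the concrete centralizer has the normal form. -/

set_option autoImplicit false

namespace Cfsg.Agent.Lib.Helper26.J3CASM
open Cfsg.Agent.Lib.Helper26.J3Stmt

theorem inP_iff (g : Sp) : InP g ↔
    (g : Mat).mulVec (Pi.single (Sum.inl 0) 1) = Pi.single (Sum.inl 0) 1 := by
  unfold InP
  constructor
  · intro h
    funext i
    rw [Matrix.mulVec_single_one]
    rw [Matrix.col_apply]
    simp [h i, Pi.single_apply]
  · intro h i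
    have := congrFun h i
    rw [Matrix.mulVec_single_one] at this
    simpa [Pi.single_apply] using this

theorem inP_mul {g h : Sp} (hg : InP g) (hh : InP h) : InP (g * h) := by
  rw [inP_iff] at *
  rw [Submonoid.coe_mul, ← Matrix.mulVec_mulVec, hh, hg]

theorem inP_inv {g : Sp} (hg : InP g) : InP g⁻¹ := by
  rw [inP_iff] at *
  have h1 : ((g⁻¹ : Sp) : Mat) * (g : Mat) = 1 := by
    rw [← Submonoid.coe_mul, inv_mul_cancel]; rfl
  calc ((g⁻¹ : Sp) : Mat).mulVec (Pi.single (Sum.inl 0) 1)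
      = ((g⁻¹ : Sp) : Mat).mulVec ((g : Mat).mulVec (Pi.single (Sum.inl 0) 1)) := by rw [hg]
    _ = Pi.single (Sum.inl 0) 1 := by rw [Matrix.mulVec_mulVec, h1, Matrix.one_mulVec]

theorem main : CASM := by
  intro h1 h2 h3 h4 h5 h6 h7
  obtain ⟨ι, z, κ, hM⟩ := h1
  obtain ⟨hz3, hzι, hzκ, hlaw, hconj⟩ := h2 ι z κ hM
  have h3' := h3 ι z κ hM
  obtain ⟨h4a, h4b⟩ := h4 ι z κ hM
  have h6' := h6 h5 z hM.2.1
  have h7' := h7 h5 z hM.2.1
  let mk : Sp →* PG := QuotientGroup.mk' (Subgroup.center Sp)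
  have hmk : ∀ g : Sp, (QuotientGroup.mk g : PG) = mk g := fun _ => rfl
  refine ⟨mk z, h7', ?_⟩
  have hmemC : ∀ g : Sp, g * z = z * g →
      mk g ∈ Subgroup.centralizer ({mk z} : Set PG) := by
    intro g hg
    rw [Subgroup.mem_centralizer_iff]
    intro y hy
    rw [Set.mem_singleton_iff] at hy
    subst hy
    rw [← map_mul, ← map_mul, hg]
  let ιt : V → ↥(Subgroup.centralizer ({mk z} : Set PG)) :=
    fun u => ⟨mk (ι u), hmemC _ (hzι u).symm⟩
  let zt : ↥(Subgroup.centralizer ({mk z} : Set PG)) := ⟨mk z, hmemC z rfl⟩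
  let κt : SL →* ↥(Subgroup.centralizer ({mk z} : Set PG)) :=
    (mk.comp κ).codRestrict _ (fun A => hmemC _ (hzκ A).symm)
  have hval : ∀ (u : V) (c : ZMod 3) (A : SL),
      ((ιt u * zt ^ c.val * κt A : ↥(Subgroup.centralizer ({mk z} : Set PG))) : PG)
        = mk (ι u * z ^ c.val * κ A) := by
    intro u c A
    simp only [Subgroup.coe_mul, SubgroupClass.coe_pow, map_mul, map_pow]
    rfl
  refine ⟨ιt, zt, κt, ⟨?_, ?_⟩, ?_, ?_, ?_, ?_⟩
  · -- injective
    rintro ⟨u, c, A⟩ ⟨u', c', A'⟩ hpq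
    have hpq' := congrArg Subtype.val hpq
    simp only at hpq'
    rw [hval, hval] at hpq'
    have hcen : (ι u * z ^ c.val * κ A)⁻¹ * (ι u' * z ^ c'.val * κ A') ∈ Subgroup.center Sp := by
      have := (QuotientGroup.eq (s := Subgroup.center Sp)).1 hpq'
      exact this
    have hin : InP ((ι u * z ^ c.val * κ A)⁻¹ * (ι u' * z ^ c'.val * κ A')) :=
      inP_mul (inP_inv (h4a u c A)) (h4a u' c' A')
    have h1 := (h5 _ hcen).2 hin
    have h2 : ι u * z ^ c.val * κ A = ι u' * z ^ c'.val * κ A' := by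
      rw [inv_mul_eq_one] at h1
      exact h1
    exact h4b h2
  · -- surjective
    rintro ⟨y, hy⟩
    obtain ⟨g, rfl⟩ := QuotientGroup.mk_surjective y
    rw [Subgroup.mem_centralizer_iff] at hy
    have hy' := hy (mk z) (Set.mem_singleton _)
    obtain ⟨g', hg', hgg⟩ := h6' g hy'.symm
    obtain ⟨u, c, A, hnf⟩ := h3' g' hg'
    refine ⟨(u, c, A), ?_⟩
    apply Subtype.ext
    simp only
    rw [hval, ← hnf]
    exact hgg
  · apply Subtype.ext
    simp only [SubgroupClass.coe_pow, OneMemClass.coe_one]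
    show mk z ^ 3 = 1
    rw [← map_pow, hz3, map_one]
  · intro x
    apply Subtype.ext
    simp only [Subgroup.coe_mul]
    have := x.2
    rw [Subgroup.mem_centralizer_iff] at this
    exact (this (mk z) (Set.mem_singleton _)).symm
  · intro u v
    apply Subtype.ext
    simp only [Subgroup.coe_mul, SubgroupClass.coe_pow]
    show mk (ι u) * mk (ι v) = mk (ι (u + v)) * mk z ^ (u 0 * v 1 - u 1 * v 0).val
    rw [← map_mul, ← map_pow, ← map_mul, hlaw]
  · intro A u
    apply Subtype.ext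
    simp only [Subgroup.coe_mul]
    show mk (κ A) * mk (ι u) = mk (ι (A.1.mulVec u)) * mk (κ A)
    rw [← map_mul, ← map_mul, hconj]

end Cfsg.Agent.Lib.Helper26.J3CASM
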