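import Cfsg.Agent.Lib.Helper26.J3Stmt

/-! S3366 piece COORD. -/

set_option autoImplicit false
universe u

namespace Cfsg.Agent.Lib.Helper26.J3COORD
open Cfsg.Agent.Lib.Helper26.J3Stmt

theorem card_SL : Nat.card SL = 24 := by
  rw [Nat.card_eq_fintype_card]; decide

theorem main : COORD.{u} := by
  intro X _ hX hzf t K ι z κ hT hK hFr hκinj hκK hconj
  obtain ⟨hfin, hR, hRcard, hRexp, ⟨e⟩, hO2, hE⟩ := hX
  obtain ⟨hZ3, hZR, hcomm, hcen, hZcent⟩ := hzf
  obtain ⟨f1, f2, f3, f4, f5, f6, f7⟩ := hFr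
  obtain ⟨hKt, hKR, hKcard⟩ := hK
  haveI := hfin
  have hz3 : z ^ 3 = 1 := by
    have h1 : orderOf (⟨z, f3⟩ : Zc X) ∣ 3 := by rw [← hZ3]; exact orderOf_dvd_natCard _
    have h := orderOf_dvd_iff_pow_eq_one.1 h1
    exact congrArg Subtype.val h
  refine ⟨ι, z, κ, ?_, hz3, hZcent z f3, f7, hconj⟩
  have hinj : Function.Injective
      (fun p : V × ZMod 3 × SL => ι p.1 * z ^ p.2.1.val * κ p.2.2) := by
    rintro ⟨u, c, A⟩ ⟨u', c', A'⟩ h
    simp only at h
    have h1 : κ A * (κ A')⁻¹ = (ι u * z ^ c.val)⁻¹ * (ι u' * z ^ c'.val) := by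
      rw [eq_inv_mul_iff_mul_eq, ← mul_assoc, h]; group
    have h2 : κ A * (κ A')⁻¹ ∈ K ⊓ R X := by
      refine ⟨K.mul_mem (hκK A) (K.inv_mem (hκK A')), ?_⟩
      rw [h1]
      have hzR : z ∈ R X := hZR f3
      exact (R X).mul_mem ((R X).inv_mem ((R X).mul_mem (f1 u) ((R X).pow_mem hzR _)))
        ((R X).mul_mem (f1 u') ((R X).pow_mem hzR _))
    rw [hKR, Subgroup.mem_bot] at h2
    have h3 : κ A = κ A' := by rwa [mul_inv_eq_one] at h2
    have hA : A = A' := hκinj h3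
    subst hA
    have h4 : ι u * z ^ c.val = ι u' * z ^ c'.val := mul_right_cancel h
    obtain ⟨rfl, rfl⟩ := f6 u u' c c' h4
    rfl
  have hcardX : Nat.card X = 648 := by
    rw [Subgroup.card_eq_card_quotient_mul_card_subgroup (Cfsg.pCore 3 X), hRcard,
      Nat.card_congr e.toEquiv, card_SL]
  have hcardP : Nat.card (V × ZMod 3 × SL) = 648 := by
    rw [Nat.card_prod, Nat.card_prod, card_SL, Nat.card_eq_fintype_card, Nat.card_eq_fintype_card]
    simp [ZMod.card]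
  exact (Nat.bijective_iff_injective_and_card _).2 ⟨hinj, by rw [hcardP, hcardX]⟩

end Cfsg.Agent.Lib.Helper26.J3COORD
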