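import Cfsg.Agent.Lib.Helper26.J3Code

/-!
# Multiplication table of the extraspecial subgroup of the involution centraliser of `3.J3` (generated)
Helper26.
-/

set_option autoImplicit false

namespace Cfsg.Agent.Lib.Helper26.J3Cen

open Cfsg.Agent.Lib.Helper26.J3Code

def MQtab : List Nat := [
  0x4b1d2ade9108f9616e6b400df697caec1face0877a9789d09bcde21e0a47f41c807ca96f596d54666c116cc784c6c75bd03f3bfc663960527b396845acaec4b968e9bf02f9f48e87cc8b780da606a8e49e28a7acfe6b91df9584ddaf1d7055c8650024c3cda306a3e7578c972fbc24f6395e9ac542f600a2df35eff60f3b586524b9c12d51ce42bd22e5a001ffbbcdeb38bdab49ca307b9ac5a928398a418820,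
  0x32d43a4e5a8d73c0d889ea190f81a72f9c2ddf0f624f591062d53798f3062f57e823ef03541b4eee2a2028e4321eb17acf8049baf7315f59fd426ecd71d3724b16dcf51c846f6f95d44006f957c152ac53cd3c0efcb105adc6aefb4e5ef90c801390ca8b599f41e2a114adbd66ec0152df760e47cf1e126a3b984bd679e6022b6a8a87de02b7abf20db88e49834b9b0b779f29220f5e72beb49cdd7b018a8628,
  0x9548961cc502fcd47d431069bb4793d671d83dd788b282c0095f5e762bc1953582567b1df8677db625e47725edfaba580178b727a16434dc47e41995c4c6f519df81ca0f2137e64820ee32b6aadeb1741d3065bd80425bfec0f50c656e6b2416ee5f3953b92ae3b150f3c086f4d3cef018db43e0a9f2ad32b644d817ce7fd6c3981bbe394a90619cb4a4f511415b115b55a06649637d62c0a3a5fe33be3bf330,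
  0x77c1d6e23a8af3a1328330ae52cf04bdb2c5b9fe83fa0f054944981dec55a507799cd62a159e77ef7c1be06d326643c544d51e0933d8572d17a475dd077d07906495cf59db11c857c5096acf2c543fc0eb80efcab620ea33a02a562498ef9962c97b7dbe6c3ff01aa7412b7b1169df32a62b120c47317ba146c5437ac3014e4bffaa8c33bcb1ca136b3fa19a0e6b3293d2b21e035d2d0ab9d86d78f088f9df8]
/-- indices (in the table of the centraliser) of generators of a complement `A5` -/
def a5x : Nat := 332
def a5y : Nat := 150
/-- a pair of non-commuting generators of the extraspecial subgroup -/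
def ncA : Nat := 0
def ncB : Nat := 1

end Cfsg.Agent.Lib.Helper26.J3Cen
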