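import Cfsg.Agent.Lib.Helper26.J3Cen2
import Cfsg.Agent.Lib.Helper26.J3CenQTab

/-!
# The extraspecial subgroup and a complement in the involution centraliser of `3.J3`
Kernel-checked facts about `QH` (squares, commutators, no elementary abelian subgroup of order 8)
and generators of a complement `A5` in `CH`.  Helper26.
-/

set_option autoImplicit false
set_option maxRecDepth 100000
set_option linter.unusedSectionVars false

namespace Cfsg.Agent.Lib.Helper26.J3Cen

open Cfsg.Spor Cfsg.Agent.Lib.Helper26.J3Code Cfsg.Agent.Lib.Helper26.J3Main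
open Cfsg.Agent.Lib.Helper26.J3Gens Cfsg.Agent.Lib.Helper26.J3Tab
open Cfsg.Agent.Lib.Helper26.J3Orb (allR allR_spec)
open Cfsg.Agent.Lib.Helper26.J3Out (qm t' mt_t t_mul)

/-- the multiplication table of the extraspecial subgroup, on indices -/
def mq (i : Nat) : Nat := lookN 5 MQtab i

def chkMQ (i : Nat) : Bool :=
  decide (mq i < 32) && decide (mulR (Qc (Nat.div i 32)) (Qc (Nat.mod i 32)) = Qc (mq i))

theorem cMQ : allR chkMQ 10 0 = true := by decide +kernel

def chkSq (i : Nat) : Bool := decide (mq (32 * i + i) = 0) || decide (mq (32 * i + i) = 29)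

theorem cSq : allB chkSq 32 = true := by decide +kernel

def chkCm (k : Nat) : Bool :=
  decide (mq k = mq (32 * (Nat.mod k 32) + Nat.div k 32)) ||
    decide (mq k = mq (32 * 29 + mq (32 * (Nat.mod k 32) + Nat.div k 32)))

theorem cCm : allR chkCm 10 0 = true := by decide +kernel

/-- three pairwise commuting involutions of the extraspecial subgroup are dependent -/
def chkE3 (i j l : Nat) : Bool :=
  decide (mq (32 * i + i) = 0 → mq (32 * j + j) = 0 → mq (32 * l + l) = 0 →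
    mq (32 * i + j) = mq (32 * j + i) → mq (32 * i + l) = mq (32 * l + i) →
    mq (32 * j + l) = mq (32 * l + j) → i ≠ 0 → j ≠ 0 → j ≠ i →
    l = 0 ∨ l = i ∨ l = j ∨ l = mq (32 * i + j))

theorem cE : allB (fun i => allB (fun j => allB (fun l => chkE3 i j l) 32) 32) 32 = true := by
  decide +kernel

theorem cNC : normR (mulR (qg 0) (qg 1)) ≠ normR (mulR (qg 1) (qg 0)) := by decide +kernel

theorem cA5 : normR (powR (L1c a5x) 3) = oneR ∧ normR (powR (L1c a5y) 5) = oneR ∧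
    normR (powR (mulR (L1c a5x) (L1c a5y)) 2) = oneR ∧ L1c a5y ≠ oneR ∧ a5x < 1920 ∧
    a5y < 1920 := by decide +kernel

theorem mq_spec (i j : Nat) (hi : i < 32) (hj : j < 32) :
    mq (32 * i + j) < 32 ∧ mulR (Qc i) (Qc j) = Qc (mq (32 * i + j)) := by
  have h := allR_spec _ _ _ cMQ (32 * i + j) (Nat.zero_le _) (by omega)
  unfold chkMQ at h
  simp only [Bool.and_eq_true, decide_eq_true_eq] at h
  have e1 : Nat.div (32 * i + j) 32 = i := by show (32 * i + j) / 32 = i; omega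
  have e2 : Nat.mod (32 * i + j) 32 = j := by show (32 * i + j) % 32 = j; omega
  rw [e1, e2] at h
  exact h

section QFacts

variable {F : Type*} [Field F] [Finite F] {ω : F} (h2 : (2 : F) = 0) (hω : ω ^ 2 + ω + 1 = 0)

include h2 hω in
theorem Qc_inj (i j : Nat) (hi : i < 32) (hj : j < 32)
    (h : decR F ω (Qc i) = decR F ω (Qc j)) : i = j :=
  look_inj Qtab 32 cNQ i j hi hj (decR_inj h2 hω (norm_look _ _) (norm_look _ _) h)

include h2 hω in
theorem mt_mul_Q {x y : threeJ3 F ω} {i j : Nat} (hi : i < 32) (hj : j < 32)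
    (hx : mt x = decR F ω (Qc i)) (hy : mt y = decR F ω (Qc j)) :
    mt (x * y) = decR F ω (Qc (mq (32 * i + j))) := by
  rw [mt_mul, hx, hy, ← decR_mul h2 hω, (mq_spec i j hi hj).2]

/-- squares in the extraspecial subgroup are central -/
theorem QH_sq : ∀ x ∈ QH h2 hω, x * x = 1 ∨ x * x = t' h2 hω := by
  intro x hx
  obtain ⟨i, hi, e⟩ := (QH_facts h2 hω).2.1 x hx
  have h := allB_spec _ _ cSq i hi
  unfold chkSq at h
  simp only [Bool.or_eq_true, decide_eq_true_eq] at h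
  have e2 := mt_mul_Q h2 hω hi hi e e
  rcases h with h | h
  · left; apply mt_inj; rw [e2, h, J3Cen.cMisc.2.2.2.2.2.2, decR_one, mt_one]
  · right; apply mt_inj; rw [e2, h, ← cTQ, mt_t]

/-- commutators in the extraspecial subgroup are central -/
theorem QH_comm : ∀ x ∈ QH h2 hω, ∀ y ∈ QH h2 hω,
    x * y = y * x ∨ x * y = t' h2 hω * (y * x) := by
  intro x hx y hy
  obtain ⟨i, hi, ex⟩ := (QH_facts h2 hω).2.1 x hx
  obtain ⟨j, hj, ey⟩ := (QH_facts h2 hω).2.1 y hy
  have h := allR_spec _ _ _ cCm (32 * i + j) (Nat.zero_le _) (by omega)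
  unfold chkCm at h
  simp only [Bool.or_eq_true, decide_eq_true_eq] at h
  have e1 : Nat.div (32 * i + j) 32 = i := by show (32 * i + j) / 32 = i; omega
  have e2 : Nat.mod (32 * i + j) 32 = j := by show (32 * i + j) % 32 = j; omega
  rw [e1, e2] at h
  have exy := mt_mul_Q h2 hω hi hj ex ey
  have eyx := mt_mul_Q h2 hω hj hi ey ex
  rcases h with h | h
  · left; apply mt_inj; rw [exy, eyx, h]
  · right
    apply mt_inj
    have hb := (mq_spec j i hj hi).1
    have et : mt (t' h2 hω) = decR F ω (Qc 29) := by rw [mt_t, ← cTQ]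
    rw [exy, mt_mul_Q h2 hω (by norm_num) hb et eyx, h]

/-- the extraspecial subgroup is not abelian -/
theorem QH_noncomm : ∃ x ∈ QH h2 hω, ∃ y ∈ QH h2 hω, x * y ≠ y * x := by
  refine ⟨qH h2 hω 0, Subgroup.subset_closure ⟨0, rfl⟩, qH h2 hω 1,
    Subgroup.subset_closure ⟨1, rfl⟩, ?_⟩
  intro h
  apply cNC
  have h1 := congrArg J3Main.mt h
  rw [mt_mul, mt_mul, mt_qH, mt_qH, ← decR_mul h2 hω, ← decR_mul h2 hω] at h1
  apply decR_inj h2 hω (norm_normR _) (norm_normR _)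
  rw [decR_normR, decR_normR]
  exact h1

/-- three pairwise commuting involutions of the extraspecial subgroup are dependent: it has no
elementary abelian subgroup of order `8` -/
theorem QH_noE8 : ∀ x ∈ QH h2 hω, ∀ y ∈ QH h2 hω, ∀ z ∈ QH h2 hω, x * x = 1 → y * y = 1 →
    z * z = 1 → x * y = y * x → x * z = z * x → y * z = z * y → x ≠ 1 → y ≠ 1 → y ≠ x →
    z = 1 ∨ z = x ∨ z = y ∨ z = x * y := by
  intro x hx y hy z hz hxx hyy hzz hxy hxz hyz hx1 hy1 hyx
  obtain ⟨i, hi, ex⟩ := (QH_facts h2 hω).2.1 x hx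
  obtain ⟨j, hj, ey⟩ := (QH_facts h2 hω).2.1 y hy
  obtain ⟨l, hl, ez⟩ := (QH_facts h2 hω).2.1 z hz
  have h := allB_spec _ _ (allB_spec _ _ (allB_spec _ _ cE i hi) j hj) l hl
  have h' := of_decide_eq_true h
  have e0 : decR F ω (Qc 0) = (1 : Matrix F9 F9 F) := by
    rw [J3Cen.cMisc.2.2.2.2.2.2, decR_one]
  have sq_of : ∀ (w : threeJ3 F ω) (k : Nat) (hk : k < 32), mt w = decR F ω (Qc k) →
      w * w = 1 → mq (32 * k + k) = 0 := by
    intro w k hk ew hww
    apply Qc_inj h2 hω _ _ (mq_spec k k hk hk).1 (by norm_num)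
    rw [← mt_mul_Q h2 hω hk hk ew ew, hww, mt_one, e0]
  have cm_of : ∀ (w v : threeJ3 F ω) (k m : Nat) (hk : k < 32) (hm : m < 32),
      mt w = decR F ω (Qc k) → mt v = decR F ω (Qc m) → w * v = v * w →
      mq (32 * k + m) = mq (32 * m + k) := by
    intro w v k m hk hm ew ev hwv
    apply Qc_inj h2 hω _ _ (mq_spec k m hk hm).1 (mq_spec m k hm hk).1
    rw [← mt_mul_Q h2 hω hk hm ew ev, ← mt_mul_Q h2 hω hm hk ev ew, hwv]
  have ne0 : ∀ (w : threeJ3 F ω) (k : Nat), mt w = decR F ω (Qc k) → w ≠ 1 → k ≠ 0 := by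
    intro w k ew hw hk
    apply hw; apply mt_inj; rw [ew, hk, e0, mt_one]
  have hji : j ≠ i := by
    intro e; apply hyx; apply mt_inj; rw [ey, ex, e]
  rcases h' (sq_of x i hi ex hxx) (sq_of y j hj ey hyy) (sq_of z l hl ez hzz)
    (cm_of x y i j hi hj ex ey hxy) (cm_of x z i l hi hl ex ez hxz)
    (cm_of y z j l hj hl ey ez hyz) (ne0 x i ex hx1) (ne0 y j ey hy1) hji with h1 | h1 | h1 | h1
  · left; apply mt_inj; rw [ez, h1, e0, mt_one]
  · right; left; apply mt_inj; rw [ez, ex, h1]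
  · right; right; left; apply mt_inj; rw [ez, ey, h1]
  · right; right; right; apply mt_inj; rw [ez, mt_mul_Q h2 hω hi hj ex ey, h1]

theorem CH_ex (i : Nat) (hi : i < 1920) : ∃ x ∈ CH h2 hω, mt x = decR F ω (L1c i) := by
  obtain ⟨g, hg, e⟩ := (C1_facts h2 hω).2.2 i hi
  have hgJ : g ∈ threeJ3 F ω := C1G_le h2 hω hg
  exact ⟨⟨g, hgJ⟩, (CH_facts h2 hω).2.2 i hi _ e, e⟩

/-- generators of a complement `A5` in the centraliser -/
theorem A5gens : ∃ x ∈ CH h2 hω, ∃ y ∈ CH h2 hω,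
    x ^ 3 = 1 ∧ y ^ 5 = 1 ∧ (x * y) ^ 2 = 1 ∧ y ≠ 1 := by
  obtain ⟨c3, c5, c2, cne, hx, hy⟩ := cA5
  obtain ⟨x, hxC, ex⟩ := CH_ex h2 hω a5x hx
  obtain ⟨y, hyC, ey⟩ := CH_ex h2 hω a5y hy
  refine ⟨x, hxC, y, hyC, ?_, ?_, ?_, ?_⟩
  · apply mt_inj
    rw [mt_pow, ex, ← J3Out.decR_powR h2 hω, ← decR_normR, c3, decR_one, mt_one]
  · apply mt_inj
    rw [mt_pow, ey, ← J3Out.decR_powR h2 hω, ← decR_normR, c5, decR_one, mt_one]
  · apply mt_inj
    rw [mt_pow, mt_mul, ex, ey, ← decR_mul h2 hω, ← J3Out.decR_powR h2 hω, ← decR_normR, c2,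
      decR_one, mt_one]
  · intro h1
    have h5 : L1c a5y = oneR :=
      decR_inj h2 hω (norm_look _ _) norm_oneR (by rw [← ey, h1, mt_one, decR_one])
    exact cne h5

end QFacts

end Cfsg.Agent.Lib.Helper26.J3Cen
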