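import Cfsg.Agent.Lib.Helper26.J3Stmt

/-! Assembly for S3366 from the pieces of `J3Stmt`. -/

set_option autoImplicit false
universe u v

namespace Cfsg.Agent.Lib.Helper26.J3Final
open Cfsg.Agent.Lib.Helper26.J3Stmt

theorem abstract_coord
    (hZF1 : ZF1.{u}) (hZF2 : ZF2.{u}) (hT1 : T1.{u}) (hT2 : T2.{u}) (hFAITH : FAITH.{u})
    (hCT : CT.{u}) (hDEX : DEX.{u}) (hEINT : EINT.{u}) (hECONJ : ECONJ.{u}) (hDCUBE : DCUBE.{u})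
    (hTNORM : TNORM.{u}) (hKEX : KEX.{u}) (hFR1 : FR1.{u}) (hFR2 : FR2.{u}) (hFR3 : FR3.{u})
    (hKACT1 : KACT1.{u}) (hKACT2 : KACT2.{u}) (hKACT3 : KACT3.{u}) (hCOORD : COORD.{u})
    (X : Type u) [Group X] (hX : Hyp X) : Coord X := by
  have hzf : ZFacts X := by
    obtain ⟨a, b, c, d⟩ := hZF1 X hX
    exact ⟨a, b, c, d, hZF2 X hX⟩
  obtain ⟨t, ht1, ht2, ht3, ht4⟩ := hT1 X hX
  have hT : TProp X t := ⟨ht1, ht2, ht3, hT2 X hX hzf t ht1 ht4⟩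
  have hF : Faith X := hFAITH X hX hzf t hT
  obtain ⟨d, hd1, hd2, hd3⟩ := hDEX hCT X hX t hT
  have hd4 : d ^ 3 = 1 := hDCUBE hEINT hECONJ X hX hzf t hT d hd1 hd2 hd3
  obtain ⟨T, hT1', hT2', hT3'⟩ := hTNORM hCT X hX hzf t hT
  obtain ⟨K, hK⟩ := hKEX X hX hzf t hT T hT1' hT2' hT3' d hd1 hd2 hd4
  obtain ⟨r1, hr1, r2, hr2, h1, h2, h3⟩ := hFR1 X hX hzf t hT
  obtain ⟨f1, f2, f3, f4, f5⟩ := hFR2 X hX hzf t hT r1 hr1 r2 hr2 h1 h2 h3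
  obtain ⟨f6, f7⟩ := hFR3 X hX hzf r1 hr1 r2 hr2 h3
  have hFr : Frame X t (iotaOf r1 r2) (zOf r1 r2) := ⟨f1, f2, f3, f4, f7, f6, f5⟩
  have hM := hKACT2 hKACT1 X hX hzf t K _ _ hT hK hFr
  obtain ⟨κ, k1, k2, k3⟩ := hKACT3 X hX hzf t K _ _ hT hK hFr hF hM
  exact hCOORD X hX hzf t K _ _ κ hT hK hFr k1 k2 k3

theorem main
    (hZF1 : ZF1.{u}) (hZF2 : ZF2.{u}) (hT1 : T1.{u}) (hT2 : T2.{u}) (hFAITH : FAITH.{u})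
    (hCT : CT.{u}) (hDEX : DEX.{u}) (hEINT : EINT.{u}) (hECONJ : ECONJ.{u}) (hDCUBE : DCUBE.{u})
    (hTNORM : TNORM.{u}) (hKEX : KEX.{u}) (hFR1 : FR1.{u}) (hFR2 : FR2.{u}) (hFR3 : FR3.{u})
    (hKACT1 : KACT1.{u}) (hKACT2 : KACT2.{u}) (hKACT3 : KACT3.{u}) (hCOORD : COORD.{u})
    (hISO : ISO.{u, 0}) (hXFER : XFER.{u, 0, v}) (hTRANS : TRANS.{v})
    (hCON1 : CON1) (hCON2 : CON2) (hCON3 : CON3) (hCON4 : CON4) (hCON5 : CON5) (hCON6 : CON6)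
    (hCON7 : CON7) (hCASM : CASM) (hSYL : SYL)
    {X : Type u} [Group X] [Finite X]
    (hR : Cfsg.IsExtraspecial 3 (Cfsg.pCore 3 X)) (hRcard : Nat.card (Cfsg.pCore 3 X) = 27)
    (hRexp : ∀ r ∈ Cfsg.pCore 3 X, r ^ 3 = 1)
    (e : X ⧸ Cfsg.pCore 3 X ≃* Matrix.SpecialLinearGroup (Fin 2) (ZMod 3))
    (hO2 : Cfsg.pCore 2 X = ⊥)
    (hE : ∃ E : Subgroup X, IsMulCommutative E ∧ (∀ a ∈ E, a ^ 3 = 1) ∧ Nat.card E = 27)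
    (F : Type v) [Field F] [Fintype F] (hF : Fintype.card F = 3) :
    ∃ (c : Cfsg.PSp 2 F) (S : Sylow 3 (Cfsg.PSp 2 F)), orderOf c = 3 ∧ c ∈ (S : Subgroup (Cfsg.PSp 2 F)) ∧
      c ∈ Subgroup.centralizer ((S : Subgroup (Cfsg.PSp 2 F)) : Set (Cfsg.PSp 2 F)) ∧
      Nonempty (X ≃* Subgroup.centralizer ({c} : Set (Cfsg.PSp 2 F))) := by
  have hX : Hyp X := ⟨inferInstance, hR, hRcard, hRexp, ⟨e⟩, hO2, hE⟩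
  have hc : Coord X := abstract_coord hZF1 hZF2 hT1 hT2 hFAITH hCT hDEX hEINT hECONJ hDCUBE
    hTNORM hKEX hFR1 hFR2 hFR3 hKACT1 hKACT2 hKACT3 hCOORD X hX
  obtain ⟨c, hc3, hcC⟩ := hCASM hCON1 hCON2 hCON3 hCON4 hCON5 hCON6 hCON7
  obtain ⟨S, hS1, hS2⟩ := hSYL c hc3 hcC
  obtain ⟨φ⟩ := hTRANS F hF
  have hconcl : Concl X PG := ⟨c, S, hc3, hS1, hS2, hISO X _ hc hcC⟩
  exact hXFER X PG (Cfsg.PSp 2 F) φ hconcl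

end Cfsg.Agent.Lib.Helper26.J3Final
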