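import Cfsg.Agent.Lib.Helper26.J3Stmt

/-! S3366 piece KACT2. -/

set_option autoImplicit false
universe u

namespace Cfsg.Agent.Lib.Helper26.J3KACT2
open Cfsg.Agent.Lib.Helper26.J3Stmt

theorem main : KACT2.{u} := by
  intro h1 X _ hX hzf t K ι z hT hK hFr
  have hρ := fun (k : K) => h1 X hX hzf t K ι z hT hK hFr k.1 k.2
  choose ρ hρ1 hρ2 hρ3 using hρ
  obtain ⟨f1, f2, f3, f4, f5, f6, f7⟩ := hFr
  have hιinj : Function.Injective ι := by
    intro u u' h
    have := f6 u u' 0 0 (by rw [h])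
    exact this.1
  let e0 : V := ![1, 0]
  let e1 : V := ![0, 1]
  let Mat2 : K → Matrix (Fin 2) (Fin 2) (ZMod 3) :=
    fun k => !![ρ k e0 0, ρ k e1 0; ρ k e0 1, ρ k e1 1]
  have hdet : ∀ k, (Mat2 k).det = 1 := by
    intro k
    rw [Matrix.det_fin_two_of]
    have := hρ3 k e0 e1
    simp [e0, e1] at this
    linear_combination this
  have hlin : ∀ k u, ρ k u = (Mat2 k).mulVec u := by
    intro k u
    let f : V →+ V := AddMonoidHom.mk' (ρ k) (hρ2 k)
    have hu : u = (u 0).val • e0 + (u 1).val • e1 := by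
      ext i; fin_cases i <;> simp [e0, e1]
    have h2 : ρ k u = (u 0).val • ρ k e0 + (u 1).val • ρ k e1 := by
      conv_lhs => rw [hu]
      show f _ = _
      rw [map_add, map_nsmul, map_nsmul]; rfl
    have h3 : ∀ i, ρ k u i = u 0 * ρ k e0 i + u 1 * ρ k e1 i := by
      intro i
      have h4 := congrFun h2 i
      rw [Pi.add_apply, Pi.smul_apply, Pi.smul_apply, nsmul_eq_mul, nsmul_eq_mul] at h4
      rw [h4, ZMod.natCast_val, ZMod.natCast_val, ZMod.cast_id']
      rfl
    ext i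
    rw [h3 i]
    fin_cases i <;>
      simp [Mat2, Matrix.mulVec, dotProduct, Fin.sum_univ_two] <;> ring
  have hcomp : ∀ (k k' : K) (u : V), ρ (k * k') u = ρ k (ρ k' u) := by
    intro k k' u
    apply hιinj
    have a1 := hρ1 (k * k') u
    have a2 := hρ1 k' u
    have a3 := hρ1 k (ρ k' u)
    have : ι (ρ (k * k') u) * ((k * k' : K) : X) = ι (ρ k (ρ k' u)) * ((k * k' : K) : X) := by
      rw [← a1, Subgroup.coe_mul, mul_assoc, a2, ← mul_assoc, a3, mul_assoc]
    exact mul_right_cancel this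
  have hmul : ∀ k k' : K, Mat2 (k * k') = Mat2 k * Mat2 k' := by
    intro k k'
    apply Matrix.toLin'.injective
    apply LinearMap.ext
    intro u
    rw [Matrix.toLin'_apply, Matrix.toLin'_mul, LinearMap.comp_apply, Matrix.toLin'_apply,
      Matrix.toLin'_apply, ← hlin, ← hlin, ← hlin, hcomp]
  let M : K →* SL := MonoidHom.mk' (fun k => ⟨Mat2 k, hdet k⟩) (by
    intro a b
    apply Subtype.ext
    exact hmul a b)
  refine ⟨M, ?_⟩
  intro k u
  have : (M k).1.mulVec u = ρ k u := (hlin k u).symm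
  rw [this]
  exact hρ1 k u

end Cfsg.Agent.Lib.Helper26.J3KACT2
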