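-- The McLaughlin group has a single conjugacy class of involutions (helper26; by-product of
-- S5323, stated in the form of the first conjunct of S2132).
import Mathlib
import Cfsg.Agent.Lib.Helper26.McLFusMain

set_option autoImplicit false

namespace Cfsg.Agent.Lib.Helper26.McLInv

open Cfsg.Agent.Lib.Helper26.McLSyl Cfsg.Agent.Lib.Helper26.McLFusMain

/-- every involution of the stabiliser of `v0`, `w0` is conjugate to `fM 22` -/
theorem conj_t (u : ↥MG) (hu : orderOf u = 2) : IsConj (fM 22) u := by
  have hu2 : u * u = 1 := by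
    rw [← pow_two, ← hu]
    exact pow_orderOf_eq_one u
  have hne : u ≠ 1 := by
    rintro rfl
    rw [orderOf_one] at hu
    norm_num at hu
  obtain ⟨g, hg⟩ := conj_all u hu2 hne
  exact isConj_iff.mpr ⟨g, hg⟩

/-- the involutions of the stabiliser of `v0`, `w0` form one conjugacy class -/
theorem inv_conj_MG (x y : ↥MG) (hx : orderOf x = 2) (hy : orderOf y = 2) : IsConj x y :=
  (conj_t x hx).symm.trans (conj_t y hy)

/-- the involutions of a group isomorphic to the stabiliser of `v0`, `w0` form one class -/
theorem inv_conj_of_iso {G : Type*} [Group G] (e : G ≃* ↥MG) (x y : G) (hx : orderOf x = 2)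
    (hy : orderOf y = 2) : IsConj x y := by
  have hx' : orderOf (e x) = 2 := by rw [MulEquiv.orderOf_eq, hx]
  have hy' : orderOf (e y) = 2 := by rw [MulEquiv.orderOf_eq, hy]
  obtain ⟨g, hg⟩ := isConj_iff.mp (inv_conj_MG _ _ hx' hy')
  refine isConj_iff.mpr ⟨e.symm g, ?_⟩
  apply e.injective
  rw [map_mul, map_mul, map_inv, MulEquiv.apply_symm_apply, hg]

/-- the McLaughlin group has a single conjugacy class of involutions -/
theorem mcl_inv_conj (x y : ↥Cfsg.Spor.McL) (hx : orderOf x = 2) (hy : orderOf y = 2) :
    IsConj x y := by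
  obtain ⟨e⟩ := Cfsg.Agent.Lib.Helper26.McLIso.mcl_iso
  exact inv_conj_of_iso e x y hx hy

end Cfsg.Agent.Lib.Helper26.McLInv
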