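import Mathlib
import Cfsg.Agent.Lib.Helper27.McStmt

/-!
# S2132, piece PSI: the action on the totally singular subspace

A homomorphism to the orthogonal group of plus type in dimension 8 over the field of two elements
whose image stabilises the column space `W` of `Pw` gives a homomorphism to the special linear
group of degree 4; an element acting trivially on `W` has image of square one, because `W` is its
own orthogonal complement (the matrix identity `Pw * Ew + Fw * Gw = 1`).
-/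

set_option autoImplicit false

namespace Cfsg.Agent.Lib.Helper26.McPSI

open Matrix
open Cfsg.Agent.Lib.Helper27.McStmt

/-- a matrix with `Pw * Ew + Fw * Gw = 1`: entry `(i, k)` is bit `4 * enc i + k` -/
def Fw : Matrix I8 (Fin 4) (ZMod 2) :=
  Matrix.of fun i k => if (839385152 : ℕ).testBit (4 * enc i + k.val) = true then 1 else 0

/-- the pairing with the columns of `Pw` -/
def Gw : Matrix (Fin 4) I8 (ZMod 2) := Matrix.of fun k i => Pw i.swap k

theorem Ew_Pw : Ew * Pw = 1 := by decide +kernel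

theorem split : Pw * Ew + Fw * Gw = 1 := by decide +kernel

theorem quad_add (u v : V8) :
    Cfsg.quadFormPlus 4 (ZMod 2) (u + v) = Cfsg.quadFormPlus 4 (ZMod 2) u
      + Cfsg.quadFormPlus 4 (ZMod 2) v + ∑ i : I8, u i.swap * v i := by
  unfold Cfsg.quadFormPlus
  rw [Fintype.sum_sum_type]
  simp only [Pi.add_apply, Sum.swap_inl, Sum.swap_inr]
  simp only [← Finset.sum_add_distrib]
  apply Finset.sum_congr rfl
  intro i _
  ring

theorem polar_of_iso (M : M8)
    (hQ : ∀ u : V8, Cfsg.quadFormPlus 4 (ZMod 2) (M *ᵥ u) = Cfsg.quadFormPlus 4 (ZMod 2) u)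
    (u v : V8) : ∑ i : I8, (M *ᵥ u) i.swap * (M *ᵥ v) i = ∑ i : I8, u i.swap * v i := by
  have h1 := hQ (u + v)
  rw [Matrix.mulVec_add, quad_add, quad_add, hQ u, hQ v] at h1
  exact add_left_cancel h1

/-- an isometry fixing `W` pointwise has square one -/
theorem sq_one (M : M8)
    (hQ : ∀ u : V8, Cfsg.quadFormPlus 4 (ZMod 2) (M *ᵥ u) = Cfsg.quadFormPlus 4 (ZMod 2) u)
    (hW : M * Pw = Pw) : M * M = 1 := by
  have key : ∀ x : V8, M *ᵥ (M *ᵥ x) = x := by
    intro x
    obtain ⟨d, hd⟩ : ∃ d : V8, d = M *ᵥ x + x := ⟨_, rfl⟩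
    have h1 : Gw *ᵥ d = 0 := by
      funext k
      show ∑ i : I8, Pw i.swap k * d i = 0
      have hw : M *ᵥ (fun i => Pw i k) = fun i => Pw i k := by
        funext i
        exact congrFun (congrFun hW i) k
      have h2 := polar_of_iso M hQ (fun i => Pw i k) x
      rw [hw] at h2
      have h3 : ∑ i : I8, Pw i.swap k * (M *ᵥ x) i = ∑ i : I8, Pw i.swap k * x i := h2
      rw [hd]
      simp only [Pi.add_apply, mul_add, Finset.sum_add_distrib]
      rw [h3]
      exact CharTwo.add_self_eq_zero _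
    have h3 : d = Pw *ᵥ (Ew *ᵥ d) := by
      have h4 : (Pw * Ew + Fw * Gw) *ᵥ d = d := by rw [split, Matrix.one_mulVec]
      rw [Matrix.add_mulVec, ← Matrix.mulVec_mulVec, ← Matrix.mulVec_mulVec, h1,
        Matrix.mulVec_zero, add_zero] at h4
      exact h4.symm
    have h5 : M *ᵥ d = d := by
      calc M *ᵥ d = M *ᵥ (Pw *ᵥ (Ew *ᵥ d)) := by rw [← h3]
        _ = (M * Pw) *ᵥ (Ew *ᵥ d) := by rw [Matrix.mulVec_mulVec]
        _ = Pw *ᵥ (Ew *ᵥ d) := by rw [hW]
        _ = d := h3.symm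
    rw [hd, Matrix.mulVec_add, add_comm (M *ᵥ x) x] at h5
    exact add_right_cancel h5
  apply Matrix.mulVec_injective
  funext x
  rw [← Matrix.mulVec_mulVec, key, Matrix.one_mulVec]

theorem main : Psi := by
  intro C _ φ hφ
  -- the matrix of an element
  obtain ⟨Mt, hMt⟩ : ∃ Mt : C → M8,
      ∀ g, Mt g = ((φ g : Matrix.GeneralLinearGroup I8 (ZMod 2)) : M8) := ⟨_, fun _ => rfl⟩
  have hM1 : Mt 1 = 1 := by
    rw [hMt, map_one]
    rfl
  have hMmul : ∀ g h, Mt (g * h) = Mt g * Mt h := by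
    intro g h
    rw [hMt, hMt, hMt, map_mul]
    rfl
  have hQ : ∀ (g : C) (u : V8), Cfsg.quadFormPlus 4 (ZMod 2) (Mt g *ᵥ u)
      = Cfsg.quadFormPlus 4 (ZMod 2) u := by
    intro g u
    rw [hMt]
    exact (φ g).2 u u
  -- the action on `W`
  have hA : ∀ g, Mt g * Pw = Pw * (Ew * Mt g * Pw) := by
    intro g
    have hc : ∀ k : Fin 4, ∃ c : Fin 4 → ZMod 2, Mt g *ᵥ (fun i => Pw i k) = Pw *ᵥ c := by
      intro k
      rw [hMt]
      exact hφ g k
    choose c hc using hc
    have h1 : Mt g * Pw = Pw * (Matrix.of fun l k => c k l) := by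
      ext i k
      exact congrFun (hc k) i
    have h2 : Ew * Mt g * Pw = Matrix.of fun l k => c k l := by
      rw [Matrix.mul_assoc, h1, ← Matrix.mul_assoc, Ew_Pw, Matrix.one_mul]
    rw [h2]
    exact h1
  have hA1 : Ew * Mt 1 * Pw = 1 := by
    rw [hM1, Matrix.mul_one, Ew_Pw]
  have hAmul : ∀ g h, Ew * Mt (g * h) * Pw = (Ew * Mt g * Pw) * (Ew * Mt h * Pw) := by
    intro g h
    rw [hMmul]
    calc Ew * (Mt g * Mt h) * Pw = Ew * Mt g * (Mt h * Pw) := by
          simp only [Matrix.mul_assoc]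
      _ = Ew * Mt g * (Pw * (Ew * Mt h * Pw)) := by rw [← hA h]
      _ = (Ew * Mt g * Pw) * (Ew * Mt h * Pw) := by
          simp only [Matrix.mul_assoc]
  have hdet : ∀ g, (Ew * Mt g * Pw).det = 1 := by
    intro g
    have h1 : (Ew * Mt g * Pw) * (Ew * Mt g⁻¹ * Pw) = 1 := by
      rw [← hAmul, mul_inv_cancel, hA1]
    have h2 : (Ew * Mt g * Pw).det * (Ew * Mt g⁻¹ * Pw).det = 1 := by
      rw [← Matrix.det_mul, h1, Matrix.det_one]
    have h3 : ∀ a b : ZMod 2, a * b = 1 → a = 1 := by decide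
    exact h3 _ _ h2
  refine ⟨{ toFun := fun g => ⟨Ew * Mt g * Pw, hdet g⟩, map_one' := ?_, map_mul' := ?_ }, ?_, ?_⟩
  · exact Subtype.ext hA1
  · intro g h
    exact Subtype.ext (hAmul g h)
  · intro g
    show Ew * Mt g * Pw = _
    rw [hMt]
  · intro g hg
    have h1 : Ew * Mt g * Pw = 1 := congrArg Subtype.val hg
    have hW : Mt g * Pw = Pw := by
      have h2 := hA g
      rw [h1, Matrix.mul_one] at h2
      exact h2
    have h3 := sq_one (Mt g) (hQ g) hW
    apply Subtype.ext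
    apply Units.ext
    show ((φ g : Matrix.GeneralLinearGroup I8 (ZMod 2)) : M8)
      * ((φ g : Matrix.GeneralLinearGroup I8 (ZMod 2)) : M8) = 1
    rw [← hMt]
    exact h3

end Cfsg.Agent.Lib.Helper26.McPSI
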