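import Mathlib
import Cfsg.Agent.Lib.Helper1.PDStmt

/-!
# S4020 piece SYLB (helper1's call), helper26

A Sylow `p`-subgroup `P'` containing `z`, `b` and centralizing `b`.
-/

set_option autoImplicit false

namespace Cfsg.Agent.Lib.Helper26.PDSYLB

universe u

open Cfsg.Agent.Lib.Helper1.PDStmt

theorem main : SylB.{u} := by
  intro X _ _ p _ P z hz hzc b hb hk
  obtain ⟨k, hk⟩ := hk
  obtain ⟨C, memC⟩ : ∃ C : Subgroup X, ∀ y : X, y ∈ C ↔ y * b = b * y := by
    refine ⟨Subgroup.centralizer {b}, fun y => ?_⟩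
    rw [Subgroup.mem_centralizer_iff]
    constructor
    · intro h
      exact (h b rfl).symm
    · intro h g hg
      rw [Set.mem_singleton_iff] at hg
      rw [hg]
      exact h.symm
  -- `b = k w k⁻¹` with `w ∈ zpowers z`
  have hbz : b ∈ (Subgroup.zpowers z).map (MulAut.conj k).toMonoidHom := by
    rw [← hk]
    exact Subgroup.mem_zpowers b
  obtain ⟨w, hw, hwb⟩ := Subgroup.mem_map.mp hbz
  obtain ⟨i, hi⟩ := Subgroup.mem_zpowers_iff.mp hw
  have hwc : ∀ x ∈ (P : Subgroup X), x * w = w * x := by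
    intro x hx
    have h1 : Commute x z := hzc x hx
    rw [← hi]
    exact h1.zpow_right i
  have hwb' : k * w * k⁻¹ = b := hwb
  -- the conjugate of `P` by `k` lies in `C`
  obtain ⟨P₂, hP₂C, hP₂p, hP₂card⟩ : ∃ P₂ : Subgroup X, P₂ ≤ C ∧ IsPGroup p ↥P₂ ∧
      Nat.card ↥P₂ = Nat.card ↥(P : Subgroup X) := by
    refine ⟨(P : Subgroup X).map (MulAut.conj k).toMonoidHom, ?_, P.isPGroup'.map _,
      Subgroup.card_map_of_injective (MulAut.conj k).injective⟩
    intro y hy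
    obtain ⟨x, hx, rfl⟩ := Subgroup.mem_map.mp hy
    rw [memC]
    show k * x * k⁻¹ * b = b * (k * x * k⁻¹)
    rw [← hwb']
    have h2 := hwc x hx
    calc k * x * k⁻¹ * (k * w * k⁻¹) = k * (x * w) * k⁻¹ := by group
      _ = k * (w * x) * k⁻¹ := by rw [h2]
      _ = k * w * k⁻¹ * (k * x * k⁻¹) := by group
  -- Sylow subgroups of `C`
  have hPC : IsPGroup p ↥((P : Subgroup X).subgroupOf C) := P.isPGroup'.comap_subtype
  obtain ⟨Q, hQ⟩ := hPC.exists_le_sylow
  have hP₂C' : IsPGroup p ↥(P₂.subgroupOf C) := hP₂p.comap_subtype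
  obtain ⟨Q₂, hQ₂⟩ := hP₂C'.exists_le_sylow
  have hQp : IsPGroup p ↥((Q : Subgroup ↥C).map C.subtype) := Q.isPGroup'.map _
  obtain ⟨P', hP'⟩ := hQp.exists_le_sylow
  have hcard1 : Nat.card ↥((Q : Subgroup ↥C).map C.subtype) = Nat.card ↥(Q : Subgroup ↥C) :=
    Subgroup.card_map_of_injective C.subtype_injective
  have hcard2 : Nat.card ↥(Q : Subgroup ↥C) = Nat.card ↥(Q₂ : Subgroup ↥C) := by
    rw [Sylow.card_eq_multiplicity, Sylow.card_eq_multiplicity]
  have hcard3 : Nat.card ↥(P₂.subgroupOf C) ≤ Nat.card ↥(Q₂ : Subgroup ↥C) :=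
    Subgroup.card_le_of_le hQ₂
  have hcard4 : Nat.card ↥(P₂.subgroupOf C) = Nat.card ↥P₂ :=
    Nat.card_congr (Subgroup.subgroupOfEquivOfLe hP₂C).toEquiv
  have hcard5 : Nat.card ↥(P' : Subgroup X) = Nat.card ↥(P : Subgroup X) := by
    rw [Sylow.card_eq_multiplicity, Sylow.card_eq_multiplicity]
  have heq : (Q : Subgroup ↥C).map C.subtype = (P' : Subgroup X) :=
    Subgroup.eq_of_le_of_card_ge hP' (by omega)
  have hP'C : ∀ y ∈ (P' : Subgroup X), y ∈ C := by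
    intro y hy
    rw [← heq] at hy
    obtain ⟨c, -, rfl⟩ := Subgroup.mem_map.mp hy
    exact c.2
  have hin : ∀ x ∈ (P : Subgroup X), x ∈ C → x ∈ (P' : Subgroup X) := by
    intro x hx hxC
    rw [← heq]
    exact Subgroup.mem_map.mpr ⟨⟨x, hxC⟩, hQ (Subgroup.mem_subgroupOf.mpr hx), rfl⟩
  refine ⟨P', hin z hz ?_, hin b hb ?_, fun y hy => (memC y).mp (hP'C y hy)⟩
  · rw [memC]
    exact (hzc b hb).symm
  · rw [memC]

end Cfsg.Agent.Lib.Helper26.PDSYLB
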