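import Mathlib
import Cfsg.Agent.Lib.Helper26.T64Stmt
import Cfsg.Agent.Lib.Helper97.PslP1

/-!
# S3157: assembly from the pieces of `T64Stmt`
-/

set_option autoImplicit false

namespace Cfsg.Agent.Lib.Helper26.T64Final

open Cfsg.Agent.Lib.Helper26.T64Stmt

universe u

instance charP_F4 : CharP F4 2 :=
  CharTwo.of_one_ne_zero_of_two_eq_zero (by decide) (by decide)

theorem final
    (hFPF : FPF.{u}) (hLANG : LANG.{u}) (hMOD3 : MOD3.{u}) (hZCARD : ZCARD.{u})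
    (hZEXP : ZEXP.{u}) (hSQ : SQ.{u}) (hCOMMID : COMMID.{u}) (hCXZ : CXZ.{u})
    (hCXFACT : CXFACT.{u}) (hCXCARD : CXCARD.{u}) (hCXNAB : CXNAB.{u}) (hINV : INV.{u})
    (hGEN : GEN.{u}) (hNF : NF.{u}) (hHEIS : HEIS.{u}) (hORD8 : ORD8.{u})
    {T : Type u} [Group T] [Finite T] (hT : Nat.card T = 64) (hna : ¬ IsMulCommutative T)
    (ρ x : MulAut T) (hρ : orderOf ρ = 3) (hx : orderOf x = 2)
    (hxr : x * ρ * x⁻¹ = ρ⁻¹) (hfp : ∀ y : T, ρ y = y → y = 1) (C : Subgroup T)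
    (hC : ∀ y : T, y ∈ C ↔ x y = y) :
    (∃ (F : Type) (_ : Field F) (_ : Fintype F), Fintype.card F = 4 ∧
        ∃ S : Sylow 2 (Matrix.ProjectiveSpecialLinearGroup (Fin 3) F),
          Nonempty (T ≃* ↥(S : Subgroup (Matrix.ProjectiveSpecialLinearGroup (Fin 3) F)))) ∧
      (Nonempty (↥C ≃* DihedralGroup 4) ∨ Nonempty (↥C ≃* QuaternionGroup 2)) := by
  have h1 : FpfFacts T ρ := hFPF T ρ hρ hfp
  have h2 : LangFact T ρ := hLANG T ρ hfp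
  have h3 : Mod3Fact T ρ := hMOD3 T ρ hρ hfp
  have hz4 := hZCARD T ρ hT hna hρ hfp h1 h2 h3
  have hze : ZExp T := hZEXP T ρ hρ hfp hz4
  have hsq : SqCentral T := hSQ T ρ hT hna hρ hfp h1 h2 h3 hz4 hze
  have hci : CommId T ρ := hCOMMID T ρ hρ h1 hze hsq
  have hxz : XZ T x := hCXZ T ρ x hρ hx hxr hfp hz4 hze
  have hxf : XFact T ρ x := hCXFACT T ρ x hρ hx hxr hfp h1 hz4 hze hsq hxz
  have hc8 := hCXCARD T ρ x hT hρ hx hxr hfp hxf C hC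
  have hnab : XNab T x := hCXNAB T ρ x hT hz4 hxz hxf hci
  have hinv : Inv2 T := hINV T ρ x hρ h1 hze hsq hci hxz hnab
  have hgen : GenData T := hGEN T ρ hT hρ hfp h1 h2 h3 hz4 hze hsq hci hinv
  have hheis : HeisData T := hNF T hT hgen
  obtain ⟨e⟩ := hHEIS T hheis
  refine ⟨⟨F4, inferInstance, inferInstance, Cfsg.Agent.Lib.Helper86.Sp4F4.F4.card, ?_⟩, ?_⟩
  · haveI : Fact (Nat.Prime 2) := ⟨Nat.prime_two⟩
    obtain ⟨P, hP⟩ := (Cfsg.Agent.Lib.Helper97.PslP1.main 3 F4 2).1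
    refine ⟨P, ?_⟩
    rw [hP]
    exact ⟨e⟩
  · obtain ⟨c₁, c₂, hc1, hc2, h12⟩ := hnab
    apply hORD8 C hc8
    exact ⟨⟨c₁, (hC _).2 hc1⟩, ⟨c₂, (hC _).2 hc2⟩, fun h => h12 (congrArg Subtype.val h)⟩

end Cfsg.Agent.Lib.Helper26.T64Final
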