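import Mathlib
import Cfsg.Agent.Lib.Helper26.T64Stmt

/-!
# S3157, piece NF: generators and relations give Heisenberg coordinates over `F4`
-/

set_option autoImplicit false

namespace Cfsg.Agent.Lib.Helper26.T64NF

open Cfsg.Agent.Lib.Helper26.T64Stmt (NF)
open Cfsg.Agent.Lib.Helper86.Sp4F4

universe u

variable {T : Type u} [Group T]

/-- the parametrisation of a four-group generated by two commuting involutions -/
def kl (s t : T) : F4 → T
  | .z => 1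
  | .o => s
  | .w => t
  | .v => s * t

theorem kl_add (s t : T) (hs : s * s = 1) (ht : t * t = 1) (hst : s * t = t * s) (p q : F4) :
    kl s t (p + q) = kl s t p * kl s t q := by
  have e1 : t * (s * t) = s := by rw [← mul_assoc, ← hst, mul_assoc, ht, mul_one]
  have e2 : s * t * s = t := by rw [hst, mul_assoc, hs, mul_one]
  have e3 : s * t * t = s := by rw [mul_assoc, ht, mul_one]
  have e4 : s * (s * t) = t := by rw [← mul_assoc, hs, one_mul]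
  have e5 : s * t * (s * t) = 1 := by rw [mul_assoc, e1, hs]
  cases p <;> cases q
  · exact (one_mul _).symm
  · exact (one_mul _).symm
  · exact (one_mul _).symm
  · exact (one_mul _).symm
  · exact (mul_one _).symm
  · exact hs.symm
  · rfl
  · exact e4.symm
  · exact (mul_one _).symm
  · exact hst
  · exact ht.symm
  · exact e1.symm
  · exact (mul_one _).symm
  · exact e2.symm
  · exact e3.symm
  · exact e5.symm

theorem main : NF.{u} := by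
  intro T _ _ hT hgen
  obtain ⟨a₁, a₂, b₁, b₂, z₁, z₂, ha1, ha2, hb1, hb2, hz1, hz2, hc1, hc2, haa, hbb,
    r11, r21, r12, r22, hcl⟩ := hgen
  have hα : ∀ p q : F4, kl a₁ a₂ (p + q) = kl a₁ a₂ p * kl a₁ a₂ q := kl_add a₁ a₂ ha1 ha2 haa
  have hβ : ∀ p q : F4, kl b₁ b₂ (p + q) = kl b₁ b₂ p * kl b₁ b₂ q := kl_add b₁ b₂ hb1 hb2 hbb
  have hγ : ∀ p q : F4, kl z₁ z₂ (p + q) = kl z₁ z₂ p * kl z₁ z₂ q :=
    kl_add z₁ z₂ hz1 hz2 (hc1 z₂)
  have hcen : ∀ (c : F4) (t : T), kl z₁ z₂ c * t = t * kl z₁ z₂ c := by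
    intro c t
    cases c
    · show 1 * t = t * 1
      rw [one_mul, mul_one]
    · exact hc1 t
    · exact hc2 t
    · show z₁ * z₂ * t = t * (z₁ * z₂)
      rw [mul_assoc, hc2 t, ← mul_assoc, hc1 t, mul_assoc]
  -- additivity of the commutation law in `b`
  have addb : ∀ a b b' : F4,
      kl b₁ b₂ b * kl a₁ a₂ a = kl a₁ a₂ a * kl b₁ b₂ b * kl z₁ z₂ (a * b) →
      kl b₁ b₂ b' * kl a₁ a₂ a = kl a₁ a₂ a * kl b₁ b₂ b' * kl z₁ z₂ (a * b') →
      kl b₁ b₂ (b + b') * kl a₁ a₂ a =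
        kl a₁ a₂ a * kl b₁ b₂ (b + b') * kl z₁ z₂ (a * (b + b')) := by
    intro a b b' h h'
    calc kl b₁ b₂ (b + b') * kl a₁ a₂ a
        = kl b₁ b₂ b * (kl b₁ b₂ b' * kl a₁ a₂ a) := by rw [hβ, mul_assoc]
      _ = kl b₁ b₂ b * kl a₁ a₂ a * kl b₁ b₂ b' * kl z₁ z₂ (a * b') := by
          rw [h']; simp only [mul_assoc]
      _ = kl a₁ a₂ a * kl b₁ b₂ b * (kl z₁ z₂ (a * b) * kl b₁ b₂ b') * kl z₁ z₂ (a * b') := by
          rw [h]; simp only [mul_assoc]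
      _ = kl a₁ a₂ a * kl b₁ b₂ b * (kl b₁ b₂ b' * kl z₁ z₂ (a * b)) * kl z₁ z₂ (a * b') := by
          rw [hcen]
      _ = kl a₁ a₂ a * kl b₁ b₂ (b + b') * kl z₁ z₂ (a * (b + b')) := by
          rw [hβ, mul_add, hγ]; simp only [mul_assoc]
  -- additivity of the commutation law in `a`
  have adda : ∀ a a' b : F4,
      kl b₁ b₂ b * kl a₁ a₂ a = kl a₁ a₂ a * kl b₁ b₂ b * kl z₁ z₂ (a * b) →
      kl b₁ b₂ b * kl a₁ a₂ a' = kl a₁ a₂ a' * kl b₁ b₂ b * kl z₁ z₂ (a' * b) →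
      kl b₁ b₂ b * kl a₁ a₂ (a + a') =
        kl a₁ a₂ (a + a') * kl b₁ b₂ b * kl z₁ z₂ ((a + a') * b) := by
    intro a a' b h h'
    calc kl b₁ b₂ b * kl a₁ a₂ (a + a')
        = kl b₁ b₂ b * kl a₁ a₂ a * kl a₁ a₂ a' := by rw [hα, mul_assoc]
      _ = kl a₁ a₂ a * kl b₁ b₂ b * (kl z₁ z₂ (a * b) * kl a₁ a₂ a') := by
          rw [h]; simp only [mul_assoc]
      _ = kl a₁ a₂ a * (kl b₁ b₂ b * kl a₁ a₂ a') * kl z₁ z₂ (a * b) := by
          rw [hcen]; simp only [mul_assoc]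
      _ = kl a₁ a₂ a * kl a₁ a₂ a' * kl b₁ b₂ b * (kl z₁ z₂ (a' * b) * kl z₁ z₂ (a * b)) := by
          rw [h']; simp only [mul_assoc]
      _ = kl a₁ a₂ (a + a') * kl b₁ b₂ b * kl z₁ z₂ ((a + a') * b) := by
          rw [hα, add_mul, hγ, hcen (a' * b) (kl z₁ z₂ (a * b))]
  have Lz : ∀ b : F4, kl b₁ b₂ b * kl a₁ a₂ F4.z =
      kl a₁ a₂ F4.z * kl b₁ b₂ b * kl z₁ z₂ (F4.z * b) := by
    intro b
    have h0 : F4.z * b = F4.z := zero_mul b
    rw [h0]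
    show kl b₁ b₂ b * 1 = 1 * kl b₁ b₂ b * 1
    rw [mul_one, one_mul, mul_one]
  have Lzr : ∀ a : F4, kl b₁ b₂ F4.z * kl a₁ a₂ a =
      kl a₁ a₂ a * kl b₁ b₂ F4.z * kl z₁ z₂ (a * F4.z) := by
    intro a
    have h0 : a * F4.z = F4.z := mul_zero a
    rw [h0]
    show 1 * kl a₁ a₂ a = kl a₁ a₂ a * 1 * 1
    rw [mul_one, one_mul, mul_one]
  have Loo : kl b₁ b₂ F4.o * kl a₁ a₂ F4.o =
      kl a₁ a₂ F4.o * kl b₁ b₂ F4.o * kl z₁ z₂ (F4.o * F4.o) := r11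
  have Low : kl b₁ b₂ F4.w * kl a₁ a₂ F4.o =
      kl a₁ a₂ F4.o * kl b₁ b₂ F4.w * kl z₁ z₂ (F4.o * F4.w) := r21
  have Lwo : kl b₁ b₂ F4.o * kl a₁ a₂ F4.w =
      kl a₁ a₂ F4.w * kl b₁ b₂ F4.o * kl z₁ z₂ (F4.w * F4.o) := r12
  have Lww : kl b₁ b₂ F4.w * kl a₁ a₂ F4.w =
      kl a₁ a₂ F4.w * kl b₁ b₂ F4.w * kl z₁ z₂ (F4.w * F4.w) := r22
  have Lov : kl b₁ b₂ F4.v * kl a₁ a₂ F4.o =
      kl a₁ a₂ F4.o * kl b₁ b₂ F4.v * kl z₁ z₂ (F4.o * F4.v) := addb F4.o F4.o F4.w Loo Low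
  have Lwv : kl b₁ b₂ F4.v * kl a₁ a₂ F4.w =
      kl a₁ a₂ F4.w * kl b₁ b₂ F4.v * kl z₁ z₂ (F4.w * F4.v) := addb F4.w F4.o F4.w Lwo Lww
  have Lvo : kl b₁ b₂ F4.o * kl a₁ a₂ F4.v =
      kl a₁ a₂ F4.v * kl b₁ b₂ F4.o * kl z₁ z₂ (F4.v * F4.o) := adda F4.o F4.w F4.o Loo Lwo
  have Lvw : kl b₁ b₂ F4.w * kl a₁ a₂ F4.v =
      kl a₁ a₂ F4.v * kl b₁ b₂ F4.w * kl z₁ z₂ (F4.v * F4.w) := adda F4.o F4.w F4.w Low Lww
  have Lvv : kl b₁ b₂ F4.v * kl a₁ a₂ F4.v =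
      kl a₁ a₂ F4.v * kl b₁ b₂ F4.v * kl z₁ z₂ (F4.v * F4.v) := adda F4.o F4.w F4.v Lov Lwv
  have L : ∀ a b : F4, kl b₁ b₂ b * kl a₁ a₂ a =
      kl a₁ a₂ a * kl b₁ b₂ b * kl z₁ z₂ (a * b) := by
    intro a b
    cases a
    · exact Lz b
    · cases b
      · exact Lzr _
      · exact Loo
      · exact Low
      · exact Lov
    · cases b
      · exact Lzr _
      · exact Lwo
      · exact Lww
      · exact Lwv
    · cases b
      · exact Lzr _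
      · exact Lvo
      · exact Lvw
      · exact Lvv
  -- surjectivity
  set f : F4 × F4 × F4 → T := fun p => kl a₁ a₂ p.1 * kl b₁ b₂ p.2.1 * kl z₁ z₂ p.2.2 with hf
  have fa : ∀ (c : F4) (p q r : F4), kl a₁ a₂ c * f (p, q, r) = f (c + p, q, r) := by
    intro c p q r
    simp only [hf]
    rw [hα]; simp only [mul_assoc]
  have fb : ∀ (c : F4) (p q r : F4), kl b₁ b₂ c * f (p, q, r) = f (p, c + q, p * c + r) := by
    intro c p q r
    simp only [hf]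
    rw [hβ, hγ, ← mul_assoc, ← mul_assoc, L p c]
    rw [mul_assoc (kl a₁ a₂ p * kl b₁ b₂ c), hcen (p * c) (kl b₁ b₂ q)]
    simp only [mul_assoc]
  have fc : ∀ (c : F4) (p q r : F4), kl z₁ z₂ c * f (p, q, r) = f (p, q, c + r) := by
    intro c p q r
    simp only [hf]
    rw [hγ, hcen c]; simp only [mul_assoc]
    rw [hcen r (kl z₁ z₂ c)]
  have hinv : ∀ g : T, g * g = 1 → g⁻¹ = g := fun g hg => inv_eq_of_mul_eq_one_left hg
  have key : ∀ g ∈ Subgroup.closure ({a₁, a₂, b₁, b₂, z₁, z₂} : Set T),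
      ∀ y ∈ Set.range f, g * y ∈ Set.range f ∧ g⁻¹ * y ∈ Set.range f := by
    intro g hg
    induction hg using Subgroup.closure_induction with
    | mem g hg =>
      have hgen : ∀ y ∈ Set.range f, g * y ∈ Set.range f := by
        rintro y ⟨⟨p, q, r⟩, rfl⟩
        rcases hg with rfl | rfl | rfl | rfl | rfl | rfl
        · exact ⟨_, (fa F4.o p q r).symm⟩
        · exact ⟨_, (fa F4.w p q r).symm⟩
        · exact ⟨_, (fb F4.o p q r).symm⟩
        · exact ⟨_, (fb F4.w p q r).symm⟩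
        · exact ⟨_, (fc F4.o p q r).symm⟩
        · exact ⟨_, (fc F4.w p q r).symm⟩
      have hgg : g * g = 1 := by
        rcases hg with rfl | rfl | rfl | rfl | rfl | rfl <;> assumption
      intro y hy
      exact ⟨hgen y hy, by rw [hinv g hgg]; exact hgen y hy⟩
    | one => intro y hy; simpa using hy
    | mul g h _ _ ihg ihh =>
      intro y hy
      refine ⟨?_, ?_⟩
      · rw [mul_assoc]; exact (ihg _ (ihh y hy).1).1
      · rw [mul_inv_rev, mul_assoc]; exact (ihh _ (ihg y hy).2).2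
    | inv g _ ih =>
      intro y hy
      exact ⟨(ih y hy).2, by rw [inv_inv]; exact (ih y hy).1⟩
  have hsurj : Function.Surjective f := by
    intro t
    have h1 : (1 : T) ∈ Set.range f := ⟨(F4.z, F4.z, F4.z), by simp only [hf]; show (1 : T) * 1 * 1 = 1; simp⟩
    have := (key t (by rw [hcl]; exact Subgroup.mem_top t) 1 h1).1
    rwa [mul_one] at this
  have hcard : Nat.card (F4 × F4 × F4) = Nat.card T := by
    rw [hT, Nat.card_eq_fintype_card]; decide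
  have hbij : Function.Bijective f :=
    (Nat.bijective_iff_surjective_and_card f).2 ⟨hsurj, hcard⟩
  exact ⟨kl a₁ a₂, kl b₁ b₂, kl z₁ z₂, hα, hβ, hγ, hcen, L, hbij⟩

end Cfsg.Agent.Lib.Helper26.T64NF
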